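import Cfsg.Agent.H212.U3.Model
import Cfsg.Agent.H470.EPO.R1

/-!
# The rank one data of `PSU(3,q)` (helper987, S5745 OwnR1)
-/

set_option autoImplicit false
set_option linter.unusedSectionVars false

namespace Cfsg.Agent.H987.R1

open Matrix Subgroup
open Cfsg.Agent Cfsg.Agent.UThreeGen.MatGroup
open Cfsg.Agent.HKS.EndU (tor tmat tor_val tor_mem act tor_emb ci ci_val wel_tor exists_tor tor_mem_center sne
  eq_of_emb_mul)
open Cfsg.Agent.H212.U3.Model (exists_a exists_equiv card_HG card_SUG card_borel index_borel card_range emb_mem)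
open Cfsg.Agent.H284 (cj mem_cj conj_mem_cj)

/-- the context -/
structure Ctx {F : Type*} [Field F] [Fintype F] (q : ℕ) (σ : F →+* F) [hσ : Fact (∀ x, σ (σ x) = x)] {T : Type*}
    [Group T] (π : SUG σ →* T) : Prop where
  q4 : 4 ≤ q
  hF : Fintype.card F = q ^ 2
  hs : ∀ x, σ x = x ^ q
  sur : Function.Surjective π
  ker : ∀ g, π g = 1 ↔ g ∈ Subgroup.center (SUG σ)

namespace Ctx

variable {F : Type*} [Field F] [Fintype F] {q : ℕ} {σ : F →+* F} [hσ : Fact (∀ x, σ (σ x) = x)] {T : Type*}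
  [Group T] {π : SUG σ →* T} (C : Ctx q σ π)

include C

theorem ex_a : ∃ x : HG σ, x.a ≠ 0 := by
  obtain ⟨x, hx⟩ := exists_a (σ := σ) C.hF C.hs 1
  exact ⟨x, by rw [hx]; exact one_ne_zero⟩

theorem cen_le : Subgroup.center (SUG σ) ≤ borel σ := center_le_borel C.ex_a

theorem eq_mul {g h : SUG σ} (e : π g = π h) : ∃ z ∈ Subgroup.center (SUG σ), g = h * z := by
  refine ⟨h⁻¹ * g, ?_, by group⟩
  rw [← C.ker, map_mul, map_inv, e, inv_mul_cancel]

theorem mem_map {H : Subgroup (SUG σ)} (hH : Subgroup.center (SUG σ) ≤ H) {g : SUG σ} : π g ∈ H.map π ↔ g ∈ H := by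
  constructor
  · rintro ⟨h, hh, e⟩
    obtain ⟨z, hz, rfl⟩ := C.eq_mul e.symm
    exact H.mul_mem hh (hH hz)
  · exact fun h => Subgroup.mem_map_of_mem π h

theorem cen_tor {z : SUG σ} (hz : z ∈ Subgroup.center (SUG σ)) :
    ∃ l : Fˣ, z = tor σ l ∧ (l : F) ^ 2 = σ (l : F) := by
  have h1 := C.cen_le hz
  obtain ⟨l, hl⟩ := exists_tor h1 (by
    have := Subgroup.mem_center_iff.1 hz (wel σ)
    rw [mul_assoc, ← this, inv_mul_cancel_left]
    exact h1)
  refine ⟨l, hl, ?_⟩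
  obtain ⟨x, hx⟩ := exists_a (σ := σ) C.hF C.hs 1
  have h2 := Subgroup.mem_center_iff.1 hz (emb σ x)
  rw [hl, tor_emb] at h2
  have h3 := emb_injective (mul_right_cancel h2)
  have h4 := congrArg HG.a h3
  simp only [act, hx, mul_one] at h4
  rw [eq_comm, div_eq_one_iff_eq (sne l)] at h4
  exact h4

omit C in
theorem wel_ne : wel σ ∉ borel σ := data_SUG.w_not_mem

theorem B_norm {u b : T} (hb : b ∈ (borel σ).map π) (hu : u ∈ (emb σ).range.map π) :
    b * u * b⁻¹ ∈ (emb σ).range.map π := by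
  obtain ⟨g, hg, rfl⟩ := hb
  obtain ⟨s, hs, rfl⟩ := hu
  rw [← map_inv, ← map_mul, ← map_mul]
  exact Subgroup.mem_map_of_mem π (data_SUG.norm g hg s hs)

theorem U_le : (emb σ).range.map π ≤ (borel σ).map π := Subgroup.map_mono data_SUG.le

theorem w_not : π (wel σ) ∉ (borel σ).map π := by
  rw [C.mem_map C.cen_le]
  exact wel_ne

omit C in
theorem ww : π (wel σ) * π (wel σ) = 1 := by
  rw [← map_mul, wel_mul_wel, map_one]

theorem tr (g : T) (hg : g ∉ (borel σ).map π) :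
    ∃ u ∈ (emb σ).range.map π, ∃ b ∈ (borel σ).map π, g = u * π (wel σ) * b := by
  obtain ⟨g, rfl⟩ := C.sur g
  have h1 : g ∉ borel σ := fun h => hg (Subgroup.mem_map_of_mem π h)
  obtain ⟨s, hs, h⟩ := data_SUG.bruhat g h1
  refine ⟨π s, Subgroup.mem_map_of_mem π hs, _, Subgroup.mem_map_of_mem π h, ?_⟩
  rw [← map_mul, ← map_mul, mul_inv_cancel_left]

theorem emb_of_mem {u : T} (hu : u ∈ (emb σ).range.map π) (h : u ∈ cj (π (wel σ)) ((borel σ).map π)) : u = 1 := by
  obtain ⟨s, hs, rfl⟩ := hu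
  rw [mem_cj, ← map_inv, ← map_mul, ← map_mul, C.mem_map C.cen_le] at h
  rw [data_SUG.inter s hs h, map_one]

theorem U_ne : (emb σ).range.map π ≠ ⊥ := by
  intro h
  obtain ⟨x, hx⟩ := exists_a (σ := σ) C.hF C.hs 1
  have h1 : π (emb σ x) ∈ (emb σ).range.map π := Subgroup.mem_map_of_mem π ⟨x, rfl⟩
  rw [h, Subgroup.mem_bot, C.ker] at h1
  have h2 := eq_one_of_mem_center h1
  rw [h2] at hx
  exact zero_ne_one hx

theorem normU : Subgroup.normalizer (((emb σ).range.map π : Subgroup T) : Set T) = (borel σ).map π := by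
  apply le_antisymm
  · intro g hg
    by_contra hgB
    obtain ⟨u, hu, b, hb, rfl⟩ := C.tr g hgB
    have hn : (borel σ).map π ≤ Subgroup.normalizer (((emb σ).range.map π : Subgroup T) : Set T) := by
      intro b hb
      rw [Subgroup.mem_normalizer_iff]
      intro n
      refine ⟨fun h => C.B_norm hb h, fun h => ?_⟩
      have h1 := C.B_norm (inv_mem hb) h
      have h2 : b⁻¹ * (b * n * b⁻¹) * b⁻¹⁻¹ = n := by group
      rwa [h2] at h1
    have hw : π (wel σ) ∈ Subgroup.normalizer (((emb σ).range.map π : Subgroup T) : Set T) := by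
      have h1 := mul_mem (mul_mem (inv_mem (hn (C.U_le hu))) hg) (inv_mem (hn hb))
      have h2 : u⁻¹ * (u * π (wel σ) * b) * b⁻¹ = π (wel σ) := by group
      rwa [h2] at h1
    apply C.U_ne
    rw [eq_bot_iff]
    intro x hx
    rw [Subgroup.mem_bot]
    apply C.emb_of_mem hx
    rw [mem_cj]
    have h1 := (Subgroup.mem_normalizer_iff.1 (inv_mem hw) x).1 hx
    rw [inv_inv] at h1
    exact C.U_le h1
  · intro b hb
    rw [Subgroup.mem_normalizer_iff]
    intro n
    refine ⟨fun h => C.B_norm hb h, fun h => ?_⟩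
    have h1 := C.B_norm (inv_mem hb) h
    have h2 : b⁻¹ * (b * n * b⁻¹) * b⁻¹⁻¹ = n := by group
    rwa [h2] at h1

theorem pU {p : ℕ} [hp : Fact p.Prime] [CharP F p] : IsPGroup p ((emb σ).range.map π : Subgroup T) := by
  have h1 : ∃ n, q = p ^ n := by
    obtain ⟨n, -, hn⟩ := FiniteField.card F p
    have h2 : q ∣ p ^ (n : ℕ) := by
      rw [← hn, C.hF]
      exact Dvd.intro_left (q ^ (2 - 1)) (by ring)
    obtain ⟨m, -, hm⟩ := (Nat.dvd_prime_pow hp.out).1 h2
    exact ⟨m, hm⟩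
  obtain ⟨n, hn⟩ := h1
  have h3 : IsPGroup p (emb σ).range := by
    apply IsPGroup.of_card (n := n * 3)
    rw [card_range, card_HG C.hF C.hs, hn, ← pow_mul]
  exact h3.map π

theorem index_U : ((emb σ).range.map π : Subgroup T).index ∣ (q ^ 3 + 1) * (q ^ 2 - 1) := by
  have h1 : ((emb σ).range.map π : Subgroup T).index ∣ (emb σ).range.index :=
    Subgroup.index_map_dvd _ C.sur
  have h2 := (emb σ).range.index_mul_card
  rw [card_SUG C.hF C.hs, card_range, card_HG C.hF C.hs] at h2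
  have h3 : (emb σ).range.index = (q ^ 3 + 1) * (q ^ 2 - 1) := by
    have h4 : 0 < q ^ 3 := by have := C.q4; positivity
    apply Nat.eq_of_mul_eq_mul_right h4
    rw [h2]
    ring
  rwa [h3] at h1

theorem maxU {p : ℕ} [hp : Fact p.Prime] [CharP F p] (S : Subgroup T) (hS : (emb σ).range.map π ≤ S)
    (hp' : IsPGroup p S) : S = (emb σ).range.map π := by
  have h4 := C.q4
  have hfT : Finite T := Finite.of_surjective π C.sur
  have hpq : p ∣ q := by
    have h1 : p ∣ Fintype.card F := by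
      obtain ⟨n, -, hn⟩ := FiniteField.card F p
      rw [hn]
      exact dvd_pow_self p n.pos.ne'
    rw [C.hF] at h1
    exact hp.out.dvd_of_dvd_pow h1
  have hcop : ¬ p ∣ (q ^ 3 + 1) * (q ^ 2 - 1) := by
    intro h
    rcases (Nat.Prime.dvd_mul hp.out).1 h with h | h
    · exact hp.out.one_lt.ne' (Nat.dvd_one.1 ((Nat.dvd_add_right (dvd_pow hpq (by norm_num))).1 h))
    · have h5 : p ∣ q ^ 2 := dvd_pow hpq (by norm_num)
      have h6 : 1 ≤ q ^ 2 := Nat.one_le_pow _ _ (by omega)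
      have h7 := (Nat.dvd_sub h5 h)
      rw [Nat.sub_sub_self h6] at h7
      exact hp.out.one_lt.ne' (Nat.dvd_one.1 h7)
  have h1 : ((emb σ).range.map π).relIndex S ∣ ((emb σ).range.map π : Subgroup T).index :=
    Subgroup.relIndex_dvd_index_of_le hS
  have h2 : ((emb σ).range.map π).relIndex S ∣ Nat.card S := Subgroup.relIndex_dvd_card _ _
  obtain ⟨n, hn⟩ := IsPGroup.iff_card.1 hp'
  rw [hn] at h2
  obtain ⟨m, -, hm⟩ := (Nat.dvd_prime_pow hp.out).1 h2
  have h3 : m = 0 := by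
    by_contra h0
    apply hcop
    refine dvd_trans ?_ (h1.trans C.index_U)
    rw [hm]
    exact dvd_pow_self p h0
  rw [h3, pow_zero, Subgroup.relIndex_eq_one] at hm
  exact le_antisymm hm hS

/-- **the data** -/
def dat (p : ℕ) [Fact p.Prime] [CharP F p] : H470.EPO.R1 p T where
  U := (emb σ).range.map π
  B := (borel σ).map π
  w := π (wel σ)
  nU := C.normU
  pU := C.pU
  mU := C.maxU
  wB := C.w_not
  ww := by rw [ww]; exact one_mem _
  tr := C.tr
  ti := by
    rw [eq_bot_iff]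
    rintro u ⟨h1, h2⟩
    rw [Subgroup.mem_bot]
    exact C.emb_of_mem h1 h2

variable (p : ℕ) [Fact p.Prime] [CharP F p]

theorem mem_T0 {t : T} : t ∈ (C.dat p).T0 ↔ ∃ l : Fˣ, t = π (tor σ l) := by
  constructor
  · rintro ⟨⟨b, hb, rfl⟩, h2⟩
    have h2 : π b ∈ cj (π (wel σ)) ((borel σ).map π) := h2
    rw [mem_cj, ← map_inv, ← map_mul, ← map_mul, C.mem_map C.cen_le] at h2
    obtain ⟨l, hl⟩ := exists_tor hb h2
    exact ⟨l, by rw [hl]⟩
  · rintro ⟨l, rfl⟩
    refine ⟨Subgroup.mem_map_of_mem π (tor_mem l), ?_⟩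
    show π (tor σ l) ∈ cj (π (wel σ)) ((borel σ).map π)
    rw [mem_cj, ← map_inv, ← map_mul, ← map_mul, C.mem_map C.cen_le, wel_inv, wel_tor]
    exact tor_mem _

end Ctx

end Cfsg.Agent.H987.R1
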