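import Cfsg.Agent.H987.R1.Reg
import Cfsg.Prelude.Def_GeometricClasses

/-!
# Geometric maximal subgroups of `SU(3,q)` which contain a regular element of order `q ^ 2 - 1` (helper987, S5745 OwnR1)
-/

set_option autoImplicit false

namespace Cfsg.Agent.H987.R1

open Matrix Module Cfsg Cfsg.Geo

variable {F : Type*} [Field F]

/-- `h` fixes the line `⟨w⟩` -/
def Fix (h : GL (Fin 3) F) (w : Fin 3 → F) : Prop := ∃ c : F, (h : Matrix (Fin 3) (Fin 3) F) *ᵥ w = c • w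

namespace Reg

variable {q : ℕ} {l : Fˣ} {b : Basis (Fin 3) F (Fin 3 → F)} {g : GL (Fin 3) F} (R : Reg q l b g)

include R

theorem inj {i j : Fin 3} (h : ((tt q l i : Fˣ) : F) = ((tt q l j : Fˣ) : F)) : i = j :=
  R.inj_pow (m := 1) (Or.inl rfl) (by rw [pow_one, pow_one, h])

omit R in
theorem third (i : Fin 3) : ∃ j k : Fin 3, j ≠ i ∧ k ≠ i ∧ ∀ m, m ≠ i → m = j ∨ m = k := by
  revert i; decide

theorem repr_one (w : Fin 3 → F) (i : Fin 3) :
    b.repr ((g : Matrix (Fin 3) (Fin 3) F) *ᵥ w) i = ((tt q l i : Fˣ) : F) * b.repr w i := by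
  have := R.repr_pow 1 w i
  rwa [pow_one, pow_one] at this

/-- the projections onto the eigenspaces -/
theorem proj {W : Submodule F (Fin 3 → F)} (hW : ∀ w ∈ W, (g : Matrix (Fin 3) (Fin 3) F) *ᵥ w ∈ W)
    {w : Fin 3 → F} (hw : w ∈ W) {i : Fin 3} (hi : b.repr w i ≠ 0) : b i ∈ W := by
  obtain ⟨j, k, hj, hk, hjk⟩ := third i
  set y : Fin 3 → F := (g : Matrix (Fin 3) (Fin 3) F) *ᵥ ((g : Matrix (Fin 3) (Fin 3) F) *ᵥ w) -
    (((tt q l j : Fˣ) : F) + (tt q l k : Fˣ)) • ((g : Matrix (Fin 3) (Fin 3) F) *ᵥ w) +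
    (((tt q l j : Fˣ) : F) * (tt q l k : Fˣ)) • w with hy
  have h1 : y ∈ W := W.add_mem (W.sub_mem (hW _ (hW _ hw)) (W.smul_mem _ (hW _ hw))) (W.smul_mem _ hw)
  have h2 : ∀ m, b.repr y m = (((tt q l m : Fˣ) : F) - (tt q l j : Fˣ)) * (((tt q l m : Fˣ) : F) - (tt q l k : Fˣ)) *
      b.repr w m := by
    intro m
    rw [hy, map_add, map_sub, Finsupp.add_apply, Finsupp.sub_apply, R.repr_one, R.repr_one, map_smul, map_smul,
      Finsupp.smul_apply, Finsupp.smul_apply, R.repr_one, smul_eq_mul, smul_eq_mul]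
    ring
  have h3 : y = b.repr y i • b i := by
    apply eq_smul
    intro m hm
    rw [h2]
    rcases hjk m hm with rfl | rfl
    · rw [sub_self, zero_mul, zero_mul]
    · rw [sub_self, mul_zero, zero_mul]
  have h4 : b.repr y i ≠ 0 := by
    rw [h2]
    refine mul_ne_zero (mul_ne_zero (sub_ne_zero.2 fun h => hj (R.inj h).symm)
      (sub_ne_zero.2 fun h => hk (R.inj h).symm)) hi
  rw [h3] at h1
  have h5 := W.smul_mem (b.repr y i)⁻¹ h1
  rwa [smul_smul, inv_mul_cancel₀ h4, one_smul] at h5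

theorem exists_mem {W : Submodule F (Fin 3 → F)} (hW : ∀ w ∈ W, (g : Matrix (Fin 3) (Fin 3) F) *ᵥ w ∈ W)
    (h : W ≠ ⊥) : ∃ i, b i ∈ W := by
  obtain ⟨w, hw, hw0⟩ := Submodule.exists_mem_ne_zero_of_ne_bot h
  obtain ⟨i, hi⟩ : ∃ i, b.repr w i ≠ 0 := by
    by_contra hn
    push Not at hn
    apply hw0
    rw [← b.sum_repr w]
    exact Finset.sum_eq_zero fun i _ => by rw [hn i, zero_smul]
  exact ⟨i, R.proj hW hw hi⟩

omit R in
theorem stab {W : Submodule F (Fin 3 → F)} {h : GL (Fin 3) F} (hh : h ∈ subspaceStabilizer W) {w : Fin 3 → F}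
    (hw : w ∈ W) : (h : Matrix (Fin 3) (Fin 3) F) *ᵥ w ∈ W := (hh w).1 hw

/-- totally singular subspaces -/
theorem case_one {W : Submodule F (Fin 3 → F)} (hW : W ≠ ⊥) (hs : IsTotallySingularFor (hermForm 3 F q) W)
    (h11 : hermForm 3 F q (b 1) (b 1) ≠ 0) (h02 : hermForm 3 F q (b 0) (b 2) ≠ 0)
    (hg : g ∈ subspaceStabilizer W) : ∃ i, ∀ h ∈ subspaceStabilizer W, Fix h (b i) := by
  have hW' : ∀ w ∈ W, (g : Matrix (Fin 3) (Fin 3) F) *ᵥ w ∈ W := fun w hw => stab hg hw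
  obtain ⟨i, hi⟩ := R.exists_mem hW' hW
  have h1 : b 1 ∉ W := fun h => h11 (hs _ h _ h)
  have h2 : ¬ (b 0 ∈ W ∧ b 2 ∈ W) := fun h => h02 (hs _ h.1 _ h.2)
  refine ⟨i, fun h hh => ⟨b.repr ((h : Matrix (Fin 3) (Fin 3) F) *ᵥ b i) i, eq_smul fun j hj => ?_⟩⟩
  by_contra h3
  have h4 := R.proj hW' (stab hh hi) h3
  fin_cases i <;> fin_cases j <;> simp_all

/-- nondegenerate points -/
theorem case_two {W : Submodule F (Fin 3 → F)} (hW : W ≠ ⊥) (hs : 2 * finrank F W < 3)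
    (hg : g ∈ subspaceStabilizer W) : ∃ i, ∀ h ∈ subspaceStabilizer W, Fix h (b i) := by
  have hW' : ∀ w ∈ W, (g : Matrix (Fin 3) (Fin 3) F) *ᵥ w ∈ W := fun w hw => stab hg hw
  obtain ⟨i, hi⟩ := R.exists_mem hW' hW
  obtain ⟨v, hv⟩ := finrank_le_one_iff.1 (show finrank F W ≤ 1 by omega)
  obtain ⟨c, hc⟩ := hv ⟨b i, hi⟩
  have hc' : c • (v : Fin 3 → F) = b i := congrArg Subtype.val hc
  have hc0 : c ≠ 0 := by
    rintro rfl
    rw [zero_smul] at hc'
    exact b.ne_zero i hc'.symm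
  refine ⟨i, fun h hh => ?_⟩
  obtain ⟨d, hd⟩ := hv ⟨_, stab hh hi⟩
  have hd' : d • (v : Fin 3 → F) = (h : Matrix (Fin 3) (Fin 3) F) *ᵥ b i := congrArg Subtype.val hd
  refine ⟨d * c⁻¹, ?_⟩
  rw [← hd', ← hc', smul_smul, mul_assoc, inv_mul_cancel₀ hc0, mul_one]

omit R in
theorem perm_fix (σ : Equiv.Perm (Fin 3)) (k : Fin 3) (h : σ k = k) : σ ^ 2 = 1 := by
  revert σ k; decide

omit R in
theorem perm_free (σ : Equiv.Perm (Fin 3)) (h : ∀ k, σ k ≠ k) : σ ^ 3 = 1 := by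
  revert σ; decide

omit R in
theorem map_pow {D : Fin 3 → Submodule F (Fin 3 → F)} {σ : Equiv.Perm (Fin 3)}
    (h : ∀ i, (D i).map (Matrix.toLin' (g : Matrix (Fin 3) (Fin 3) F)) = D (σ i)) (m : ℕ) (i : Fin 3) :
    (D i).map (Matrix.toLin' ((g ^ m : GL (Fin 3) F) : Matrix (Fin 3) (Fin 3) F)) = D ((σ ^ m) i) := by
  induction m generalizing i with
  | zero => simp
  | succ m ih =>
    rw [pow_succ', Units.val_mul, Matrix.toLin'_mul, Submodule.map_comp, ih, h, pow_succ', Equiv.Perm.mul_apply]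

/-- orthogonal decompositions -/
theorem case_three {D : Fin 3 → Submodule F (Fin 3 → F)}
    (hD : IsNondegenerateMDecomposition (hermForm 3 F q) 1 D)
    (h00 : hermForm 3 F q (b 0) (b 0) = 0) (h22 : hermForm 3 F q (b 2) (b 2) = 0)
    (hg : g ∈ decompositionStabilizer D) : False := by
  obtain ⟨σ, hσ⟩ := hg
  have hw : ∀ i, ∃ w : Fin 3 → F, w ∈ D i ∧ w ≠ 0 ∧ ∀ x ∈ D i, ∃ c : F, x = c • w := by
    intro i
    obtain ⟨v, hv0, hv⟩ := finrank_eq_one_iff'.1 (hD.decomp.finrank_eq i)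
    refine ⟨v, v.2, fun h => hv0 (Subtype.ext h), fun x hx => ?_⟩
    obtain ⟨c, hc⟩ := hv ⟨x, hx⟩
    exact ⟨c, (congrArg Subtype.val hc).symm⟩
  choose w hw1 hw2 hw3 using hw
  have hdis : ∀ i j, i ≠ j → ∀ x ∈ D i, x ∈ D j → x = 0 := by
    intro i j hij x hx hx'
    have h1 := hD.decomp.indep.pairwiseDisjoint hij
    exact Submodule.disjoint_def.1 h1 x hx hx'
  have heig : ∀ m, σ ^ m = 1 → ∀ i, ∃ c : F, ((g ^ m : GL (Fin 3) F) : Matrix (Fin 3) (Fin 3) F) *ᵥ w i = c • w i := by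
    intro m hm i
    have h1 := map_pow hσ m i
    rw [hm] at h1
    apply hw3 i
    have h2 : Matrix.toLin' ((g ^ m : GL (Fin 3) F) : Matrix (Fin 3) (Fin 3) F) (w i) ∈
      (D i).map (Matrix.toLin' ((g ^ m : GL (Fin 3) F) : Matrix (Fin 3) (Fin 3) F)) := Submodule.mem_map_of_mem (hw1 i)
    rw [h1] at h2
    rwa [Matrix.toLin'_apply] at h2
  by_cases hfix : ∃ k, σ k = k
  · obtain ⟨k, hk⟩ := hfix
    have h2 := perm_fix σ k hk
    have h3 : ∀ i, ∃ a : F, a ≠ 0 ∧ w i = a • b 1 := by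
      intro i
      obtain ⟨c, hc⟩ := heig 2 h2 i
      obtain ⟨j, a, ha, haj⟩ := R.exists_line (Or.inr rfl) (hw2 i) hc
      have hj : hermForm 3 F q (b j) (b j) ≠ 0 := by
        obtain ⟨⟨x, hx, hx'⟩, -⟩ := hD.nondegenerate i (w i) (hw1 i) (hw2 i)
        intro h4
        apply hx'
        obtain ⟨d, rfl⟩ := hw3 i x hx
        rw [haj]
        have : hermForm 3 F q (d • a • b j) (a • b j) = d * a * a ^ q * hermForm 3 F q (b j) (b j) := by
          simp only [hermForm, Finset.mul_sum, Pi.smul_apply, smul_eq_mul, mul_pow]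
          refine Finset.sum_congr rfl fun k _ => ?_
          ring
        rw [this, h4, mul_zero]
      have hj1 : j = 1 := by
        fin_cases j
        · exact absurd h00 hj
        · rfl
        · exact absurd h22 hj
      subst hj1
      exact ⟨a, ha, haj⟩
    obtain ⟨a, ha, h4⟩ := h3 0
    obtain ⟨c, hc, h5⟩ := h3 1
    apply hw2 0
    apply hdis 0 1 (by decide) _ (hw1 0)
    have h6 : w 0 = (a * c⁻¹) • w 1 := by
      rw [h4, h5, smul_smul, mul_assoc, inv_mul_cancel₀ hc, mul_one]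
    rw [h6]
    exact (D 1).smul_mem _ (hw1 1)
  · push Not at hfix
    have h2 := perm_free σ hfix
    have h18 : ¬ q ^ 2 - 1 ∣ 3 * 3 := not_dvd R.hq (by omega)
    have h3 : ∀ i, b.repr (w i) 1 = 0 := by
      intro i
      by_contra h4
      obtain ⟨c, hc⟩ := heig 3 h2 i
      have h5 := (R.coord hc 1).resolve_left h4
      have h6 : w i = b.repr (w i) 1 • b 1 := by
        apply eq_smul
        intro j hj
        rcases R.coord hc j with h7 | h7
        · exact h7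
        · exact absurd (h7.trans h5.symm) (R.ne_one h18 hj)
      apply hw2 i
      apply hdis i (σ i) (fun h => hfix i h.symm) _ (hw1 i)
      have h8 : Matrix.toLin' (g : Matrix (Fin 3) (Fin 3) F) (w i) ∈ D (σ i) := by
        rw [← hσ i]
        exact Submodule.mem_map_of_mem (hw1 i)
      have h9 : Matrix.toLin' (g : Matrix (Fin 3) (Fin 3) F) (w i) = ((tt q l 1 : Fˣ) : F) • w i := by
        rw [Matrix.toLin'_apply]
        conv_lhs => rw [h6]
        rw [mulVec_smul, R.eig, smul_comm, ← h6]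
      rw [h9] at h8
      have h10 := (D (σ i)).smul_mem (((tt q l 1 : Fˣ) : F))⁻¹ h8
      rwa [smul_smul, inv_mul_cancel₀ (Units.ne_zero _), one_smul] at h10
    have h4 : (⊤ : Submodule F (Fin 3 → F)) ≤ LinearMap.ker (b.coord 1) := by
      rw [← hD.decomp.iSup_eq_top]
      apply iSup_le
      intro i x hx
      obtain ⟨c, rfl⟩ := hw3 i x hx
      rw [LinearMap.mem_ker, map_smul, b.coord_apply, h3, smul_zero]
    have h5 : b 1 ∈ LinearMap.ker (b.coord 1) := h4 Submodule.mem_top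
    rw [LinearMap.mem_ker, b.coord_apply, b.repr_self, Finsupp.single_eq_same] at h5
    exact one_ne_zero h5

end Reg

end Cfsg.Agent.H987.R1
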