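import Cfsg.Agent.H987.R1.Geo

/-!
# Geometric maximal subgroups of `SU(3,q)` which contain a regular element, second part (helper987, S5745 OwnR1)
-/

set_option autoImplicit false

namespace Cfsg.Agent.H987.R1

open Matrix Module Cfsg Cfsg.Geo

variable {F : Type*} [Field F]

namespace Reg

variable {q : ℕ} {l : Fˣ} {b : Basis (Fin 3) F (Fin 3 → F)} {g : GL (Fin 3) F} (R : Reg q l b g)

include R

/-- normalisers of cubic fields -/
theorem case_four {K : Subalgebra F (Matrix (Fin 3) (Fin 3) F)} (hK : IsFieldSubalgebra 3 K)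
    (hg : g ∈ subalgebraNormalizer K) : False := by
  have hinj : ∀ x ∈ K, x *ᵥ b 1 = 0 → x = 0 := by
    intro x hx h
    by_contra hx0
    obtain ⟨y, hy, hxy⟩ := hK.inv x hx hx0
    apply b.ne_zero 1
    have h1 : (y * x) *ᵥ b 1 = 0 := by rw [← mulVec_mulVec, h, mulVec_zero]
    rwa [hK.comm y hy x hx, hxy, one_mulVec] at h1
  -- evaluation at `b 1`
  let ev : K →ₗ[F] (Fin 3 → F) :=
    { toFun := fun x => (x : Matrix (Fin 3) (Fin 3) F) *ᵥ b 1
      map_add' := fun x y => by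
        rw [Subalgebra.coe_add, add_mulVec]
      map_smul' := fun c x => by
        rw [Subalgebra.coe_smul, smul_mulVec, RingHom.id_apply] }
  have hev : Function.Injective ev := by
    rw [injective_iff_map_eq_zero]
    intro x hx
    exact Subtype.ext (hinj x x.2 hx)
  have hfd : FiniteDimensional F K := FiniteDimensional.of_finrank_pos (by rw [hK.finrank_eq]; norm_num)
  have hsur : Function.Surjective ev := by
    apply (LinearMap.injective_iff_surjective_of_finrank_eq_finrank _).1 hev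
    rw [hK.finrank_eq]
    simp
  obtain ⟨⟨x, hxK⟩, hx⟩ := hsur (b 0)
  have hx : x *ᵥ b 1 = b 0 := hx
  have hgg : ((g⁻¹ : GL (Fin 3) F) : Matrix (Fin 3) (Fin 3) F) * (g : Matrix (Fin 3) (Fin 3) F) = 1 := by
    rw [← Units.val_mul, inv_mul_cancel, Units.val_one]
  have hg1 : ((g⁻¹ : GL (Fin 3) F) : Matrix (Fin 3) (Fin 3) F) *ᵥ b 1 = (((tt q l 1 : Fˣ) : F))⁻¹ • b 1 := by
    have h1 : ((g⁻¹ : GL (Fin 3) F) : Matrix (Fin 3) (Fin 3) F) *ᵥ ((g : Matrix (Fin 3) (Fin 3) F) *ᵥ b 1) = b 1 := by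
      rw [mulVec_mulVec, hgg, one_mulVec]
    rw [R.eig, mulVec_smul] at h1
    have h2 := congrArg (fun v => (((tt q l 1 : Fˣ) : F))⁻¹ • v) h1
    simp only [smul_smul] at h2
    rwa [inv_mul_cancel₀ (Units.ne_zero _), one_smul] at h2
  have hy : (g : Matrix (Fin 3) (Fin 3) F) * x * ((g⁻¹ : GL (Fin 3) F) : Matrix (Fin 3) (Fin 3) F)
      = ((((tt q l 1 : Fˣ) : F))⁻¹ * ((tt q l 0 : Fˣ) : F)) • x := by
    have h1 := (hg x).1 hxK
    rw [← sub_eq_zero]
    apply hinj _ (K.sub_mem h1 (K.smul_mem hxK _))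
    rw [sub_mulVec, ← mulVec_mulVec, ← mulVec_mulVec, hg1, mulVec_smul, mulVec_smul, hx, R.eig, smul_mulVec, hx,
      smul_smul, sub_self]
  set c : F := (((tt q l 1 : Fˣ) : F))⁻¹ * ((tt q l 0 : Fˣ) : F) with hc
  have hyy : (g : Matrix (Fin 3) (Fin 3) F) * (x * x) = (c * c) • (x * x) * (g : Matrix (Fin 3) (Fin 3) F) := by
    have h1 : (g : Matrix (Fin 3) (Fin 3) F) * x = c • x * (g : Matrix (Fin 3) (Fin 3) F) := by
      rw [← hy, Matrix.mul_assoc, hgg, Matrix.mul_one]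
    rw [← Matrix.mul_assoc, h1, Matrix.smul_mul, Matrix.smul_mul, Matrix.mul_assoc, h1, Matrix.smul_mul,
      Matrix.mul_smul, smul_smul, Matrix.smul_mul, Matrix.mul_assoc]
  have h1 : ((g ^ 1 : GL (Fin 3) F) : Matrix (Fin 3) (Fin 3) F) *ᵥ ((x * x) *ᵥ b 1) =
      (c * c * ((tt q l 1 : Fˣ) : F)) • ((x * x) *ᵥ b 1) := by
    rw [pow_one, mulVec_mulVec, hyy, ← mulVec_mulVec, R.eig, mulVec_smul, smul_mulVec, smul_smul, mul_comm (c * c)]
  have hne : (x * x) *ᵥ b 1 ≠ 0 := by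
    intro h
    have h2 := hinj _ (K.mul_mem hxK hxK) h
    have hx0 : x ≠ 0 := by
      intro h3
      rw [h3, zero_mulVec] at hx
      exact b.ne_zero 0 hx.symm
    obtain ⟨y, hy, hxy⟩ := hK.inv x hxK hx0
    apply hx0
    calc x = (x * x) * y := by rw [Matrix.mul_assoc, hxy, Matrix.mul_one]
      _ = 0 := by rw [h2, Matrix.zero_mul]
  obtain ⟨i, a, ha, hia⟩ := R.exists_line (Or.inl rfl) hne h1
  have h2 := R.coord h1 i
  rw [hia, map_smul, Finsupp.smul_apply, b.repr_self, Finsupp.single_eq_same, smul_eq_mul, mul_one] at h2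
  have h3 := h2.resolve_left ha
  rw [pow_one, hc] at h3
  have ht1 : ((tt q l 1 : Fˣ) : F) ≠ 0 := Units.ne_zero _
  have h4 : ((tt q l i : Fˣ) : F) * ((tt q l 1 : Fˣ) : F) = ((tt q l 0 : Fˣ) : F) ^ 2 := by
    rw [h3]
    field_simp
  fin_cases i
  · have h5 : ((tt q l 1 : Fˣ) : F) = ((tt q l 0 : Fˣ) : F) := by
      have h6 : ((tt q l 0 : Fˣ) : F) * ((tt q l 1 : Fˣ) : F) = ((tt q l 0 : Fˣ) : F) ^ 2 := h4
      rw [sq] at h6
      exact mul_left_cancel₀ (Units.ne_zero _) h6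
    exact absurd (R.inj h5) (by decide)
  · have h5 : ((tt q l 1 : Fˣ) : F) ^ 2 = ((tt q l 0 : Fˣ) : F) ^ 2 := by
      rw [← h4, sq]
      rfl
    exact absurd (R.inj_pow (Or.inr rfl) h5) (by decide)
  · have h5 : tt q l 2 * tt q l 1 = tt q l 0 ^ 2 := by
      apply Units.ext
      rw [Units.val_mul, Units.val_pow_eq_pow_val]
      exact h4
    have h6 : (l ^ q)⁻¹ * l ^ (q - 1) = l ^ 2 := h5
    have h7 := R.four_le
    have h8 : l ^ 3 = 1 := by
      have h9 : l ^ q = l * l ^ (q - 1) := by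
        rw [← pow_succ']; congr 1; omega
      rw [h9, _root_.mul_inv_rev, mul_comm (l ^ (q - 1))⁻¹, mul_assoc, inv_mul_cancel, mul_one] at h6
      rw [pow_succ, ← h6, inv_mul_cancel]
    have h10 := Nat.le_of_dvd (by norm_num) (R.ord 3 h8)
    have : 16 ≤ q ^ 2 := by nlinarith
    omega

/-- the Frobenius argument -/
theorem no_frob {s r : ℕ} (hl : l ^ (q ^ 2 - 1) = 1) (hs : s ^ r = q ^ 2)
    (hr : (r.Prime ∧ Odd r) ∨ r = 2) {c : F}
    (h : ∀ i, ∃ j, ((tt q l j : Fˣ) : F) = c * ((tt q l i : Fˣ) : F) ^ s)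
    (hin : ∀ i j, ((tt q l i : Fˣ) : F) ^ s = ((tt q l j : Fˣ) : F) ^ s → i = j) : False := by
  have h4 := R.four_le
  have h16 : 16 ≤ q ^ 2 := by nlinarith
  have hs2 : 2 ≤ s := by
    by_contra hlt
    have : s = 0 ∨ s = 1 := by omega
    rcases this with rfl | rfl
    · rcases Nat.eq_zero_or_pos r with h0 | h0
      · rw [h0, pow_zero] at hs; omega
      · rw [zero_pow h0.ne'] at hs; omega
    · rw [one_pow] at hs; omega
  choose π hπ using h
  have hc : c ≠ 0 := by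
    rintro rfl
    have := hπ 0
    rw [zero_mul] at this
    exact Units.ne_zero _ this
  have hπi : ∀ i j, π i = π j → i = j := by
    intro i j hij
    apply hin
    have h1 := hπ i
    rw [hij, hπ j] at h1
    exact (mul_left_cancel₀ hc h1).symm
  have hqm : (q - 1) * (q + 1) = q ^ 2 - 1 := by
    obtain ⟨k, rfl⟩ : ∃ k, q = k + 1 := ⟨q - 1, by omega⟩
    have : (k + 1) ^ 2 = k * (k + 2) + 1 := by ring
    rw [this]
    simp
  -- ratio of order `q - 1`
  have hrat : ((tt q l 0 : Fˣ) : F) ^ (q - 1) = ((tt q l 2 : Fˣ) : F) ^ (q - 1) := by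
    rw [← Units.val_pow_eq_pow_val, ← Units.val_pow_eq_pow_val]
    congr 1
    show l ^ (q - 1) = ((l ^ q)⁻¹) ^ (q - 1)
    have h1 : l ^ (q - 1) * (l ^ q) ^ (q - 1) = 1 := by
      rw [← pow_mul, ← pow_add, show q - 1 + q * (q - 1) = (q - 1) * (q + 1) by ring, hqm, hl]
    rw [inv_pow]
    exact eq_inv_of_mul_eq_one_left h1
  have hrat' : ((tt q l (π 0) : Fˣ) : F) ^ (q - 1) = ((tt q l (π 2) : Fˣ) : F) ^ (q - 1) := by
    rw [hπ 0, hπ 2, mul_pow, mul_pow, ← pow_mul, ← pow_mul, mul_comm s, pow_mul, pow_mul, hrat]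
  have hq1 : ¬ q ^ 2 - 1 ∣ 3 * (q - 1) := by
    intro h5
    rw [← hqm, mul_comm 3] at h5
    have h6 := Nat.dvd_of_mul_dvd_mul_left (by omega) h5
    have := Nat.le_of_dvd (by norm_num) h6
    omega
  have h0 : π 0 ≠ 1 := by
    intro h5
    have h6 : π 2 ≠ 1 := fun h7 => absurd (hπi 0 2 (h5.trans h7.symm)) (by decide)
    rw [h5] at hrat'
    exact R.ne_one hq1 h6 hrat'.symm
  have h2 : π 2 ≠ 1 := by
    intro h5
    rw [h5] at hrat'
    exact R.ne_one hq1 h0 hrat'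
  have h02 : π 0 ≠ π 2 := fun h5 => absurd (hπi 0 2 h5) (by decide)
  have h01 : π 0 ≠ π 1 := fun h5 => absurd (hπi 0 1 h5) (by decide)
  have h12 : π 1 ≠ π 2 := fun h5 => absurd (hπi 1 2 h5) (by decide)
  have h1 : π 1 = 1 := by
    revert h0 h2 h02 h01 h12
    generalize π 0 = x; generalize π 1 = y; generalize π 2 = z
    revert x y z; decide
  have e1 := hπ 1
  rw [h1] at e1
  have hcase : (π 0 = 0) ∨ (π 0 = 2 ∧ π 2 = 0) := by
    revert h0 h2 h02
    generalize π 0 = x; generalize π 2 = z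
    revert x z; decide
  -- cancellation
  have key : ∀ (m : ℕ) (d : F), d ≠ 0 → 1 ≤ m → ((tt q l 0 : Fˣ) : F) = d * ((tt q l 0 : Fˣ) : F) ^ m →
      ((tt q l 1 : Fˣ) : F) = d * ((tt q l 1 : Fˣ) : F) ^ m → q ^ 2 - 1 ∣ 3 * (m - 1) := by
    intro m d hd hm h5 h6
    apply dvd_of_zero_one h4 R.ord
    apply Units.ext
    rw [Units.val_pow_eq_pow_val, Units.val_pow_eq_pow_val]
    obtain ⟨k, rfl⟩ : ∃ k, m = k + 1 := ⟨m - 1, by omega⟩
    rw [pow_succ, ← mul_assoc] at h5 h6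
    have h7 := mul_right_cancel₀ (Units.ne_zero _) ((one_mul _).trans h5)
    have h8 := mul_right_cancel₀ (Units.ne_zero _) ((one_mul _).trans h6)
    exact mul_left_cancel₀ hd (h8.symm.trans h7)
  have hr3 : (r.Prime ∧ Odd r) → s ^ 3 ≤ q ^ 2 := by
    rintro ⟨h5, h6⟩
    rw [← hs]
    apply Nat.pow_le_pow_right (by omega)
    have := h5.two_le
    obtain ⟨k, hk⟩ := h6
    omega
  have hsq : r = 2 → s = q := by
    rintro rfl
    exact Nat.pow_left_injective (n := 2) (by norm_num) hs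
  rcases hcase with h5 | ⟨h5, h6⟩
  · have e0 := hπ 0
    rw [h5] at e0
    have h7 := key s c hc (by omega) e0 e1
    rcases hr with hr | hr
    · have h8 := hr3 hr
      have h9 := Nat.le_of_dvd (by omega) h7
      have h10 : 4 * s ≤ s ^ 3 := by nlinarith [Nat.mul_le_mul hs2 hs2]
      omega
    · rw [hsq hr] at h7
      exact hq1 h7
  · have e0 := hπ 0
    have e2 := hπ 2
    rw [h5] at e0
    rw [h6] at e2
    rcases hr with hr | hr
    · have f0 : ((tt q l 0 : Fˣ) : F) = (c * c ^ s) * ((tt q l 0 : Fˣ) : F) ^ (s * s) := by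
        conv_lhs => rw [e2, e0]
        rw [mul_pow, ← pow_mul]
        ring
      have f1 : ((tt q l 1 : Fˣ) : F) = (c * c ^ s) * ((tt q l 1 : Fˣ) : F) ^ (s * s) := by
        conv_lhs => rw [e1, e1]
        rw [mul_pow, ← pow_mul]
        ring
      have h7 := key (s * s) _ (mul_ne_zero hc (pow_ne_zero _ hc)) (by nlinarith) f0 f1
      have h8 := hr3 hr
      have h9 := Nat.le_of_dvd (by have : 4 ≤ s * s := Nat.mul_le_mul hs2 hs2; omega) h7
      have h10 : s < 3 := by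
        by_contra h11
        push Not at h11
        have h12 : s ^ 3 = s * (s * s) := by ring
        have h13 : 3 * (s * s) ≤ s * (s * s) := Nat.mul_le_mul_right _ h11
        have h14 : 9 ≤ s * s := Nat.mul_le_mul h11 h11
        omega
      have h11 : s = 2 := by omega
      subst h11
      omega
    · have hsq' := hsq hr
      subst hsq'
      have f1 : tt s l 2 * tt s l 1 ^ s = tt s l 1 * tt s l 0 ^ s := by
        apply Units.ext
        rw [Units.val_mul, Units.val_mul, Units.val_pow_eq_pow_val, Units.val_pow_eq_pow_val]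
        apply mul_left_cancel₀ hc
        calc c * (((tt s l 2 : Fˣ) : F) * ((tt s l 1 : Fˣ) : F) ^ s)
            = ((tt s l 2 : Fˣ) : F) * (c * ((tt s l 1 : Fˣ) : F) ^ s) := by ring
          _ = ((tt s l 1 : Fˣ) : F) * ((tt s l 2 : Fˣ) : F) := by rw [← e1]; ring
          _ = ((tt s l 1 : Fˣ) : F) * (c * ((tt s l 0 : Fˣ) : F) ^ s) := by rw [← e0]
          _ = _ := by ring
      have f2 : (l ^ s)⁻¹ * (l ^ (s - 1)) ^ s = l ^ (s - 1) * l ^ s := f1
      have f3 : l ^ (4 * s - 2) = 1 := by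
        have f4 : (l ^ (s - 1)) ^ s = l ^ s * (l ^ (s - 1) * l ^ s) := by
          rw [← f2, mul_inv_cancel_left]
        have f5 : l ^ (s ^ 2 - 1) = (l ^ (s - 1)) ^ s * l ^ (s - 1) := by
          rw [← pow_mul, ← pow_add, ← hqm]
          congr 1
        rw [hl, f4, ← pow_add, ← pow_add, ← pow_add] at f5
        rw [show 4 * s - 2 = s + (s - 1 + s) + (s - 1) by omega, ← f5]
      have f6 := Nat.le_of_dvd (by omega) (R.ord _ f3)
      have f7 : 4 * s ≤ s ^ 2 := by nlinarith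
      omega

/-- eigenvalues under the Frobenius map -/
theorem frob_step (φ : F →+* F) {A P P' : Matrix (Fin 3) (Fin 3) F} {c : F} (hc : c ≠ 0)
    (hAe : ∀ i j, φ (A i j) = A i j) (hPgP : (g : Matrix (Fin 3) (Fin 3) F) * P = c • (P * A))
    (hP1 : P * P' = 1) (hP2 : P' * P = 1) (i : Fin 3) :
    ∃ j, ((tt q l j : Fˣ) : F) = (c * φ c⁻¹) * φ ((tt q l i : Fˣ) : F) := by
  have hcP : ∀ v : Fin 3 → F, (g : Matrix (Fin 3) (Fin 3) F) *ᵥ (P *ᵥ v) = c • (P *ᵥ (A *ᵥ v)) := by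
    intro v
    rw [mulVec_mulVec, hPgP, smul_mulVec, mulVec_mulVec]
  have hPin : ∀ v w : Fin 3 → F, P *ᵥ v = P *ᵥ w → v = w := by
    intro v w h
    have h1 := congrArg (fun u => P' *ᵥ u) h
    simpa only [mulVec_mulVec, hP2, one_mulVec] using h1
  -- the eigenvectors of `A`
  obtain ⟨w, hPw⟩ : ∃ w : Fin 3 → F, P *ᵥ w = b i := ⟨P' *ᵥ b i, by rw [mulVec_mulVec, hP1, one_mulVec]⟩
  have hw : A *ᵥ w = (c⁻¹ * ((tt q l i : Fˣ) : F)) • w := by
    apply hPin
    have h1 := hcP w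
    rw [hPw, R.eig] at h1
    rw [mulVec_smul, hPw, mul_smul, h1, smul_smul, inv_mul_cancel₀ hc, one_smul]
  have hwφ : A *ᵥ (fun k => φ (w k)) = φ (c⁻¹ * ((tt q l i : Fˣ) : F)) • (fun k => φ (w k)) := by
    funext k
    have h1 := congrArg φ (congrFun hw k)
    rw [Pi.smul_apply, smul_eq_mul, map_mul φ _ (w k)] at h1
    rw [Pi.smul_apply, smul_eq_mul, ← h1]
    simp only [mulVec, dotProduct, map_sum, map_mul, hAe]
  have h1 : ((g ^ 1 : GL (Fin 3) F) : Matrix (Fin 3) (Fin 3) F) *ᵥ (P *ᵥ fun k => φ (w k)) =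
      (c * φ (c⁻¹ * ((tt q l i : Fˣ) : F))) • (P *ᵥ fun k => φ (w k)) := by
    rw [pow_one, hcP, hwφ, mulVec_smul, smul_smul]
  have hne : P *ᵥ (fun k => φ (w k)) ≠ 0 := by
    intro h2
    have h3 : (fun k => φ (w k)) = (0 : Fin 3 → F) := hPin _ _ (by rw [h2, mulVec_zero])
    apply b.ne_zero i
    have h4 : w = 0 := by
      funext k
      have h5 := congrFun h3 k
      exact (map_eq_zero φ).1 h5
    rw [← hPw, h4, mulVec_zero]
  obtain ⟨j, a, ha, hj⟩ := R.exists_line (Or.inl rfl) hne h1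
  refine ⟨j, ?_⟩
  have h2 := R.coord h1 j
  rw [hj, map_smul, Finsupp.smul_apply, b.repr_self, Finsupp.single_eq_same, smul_eq_mul, mul_one] at h2
  have h3 := h2.resolve_left ha
  rw [pow_one] at h3
  rw [h3, map_mul, mul_assoc]

/-- subfield groups -/
theorem case_five [Fintype F] (hF : Fintype.card F = q ^ 2) {F₀ : Subfield F} {r : ℕ}
    (hr : (r.Prime ∧ Odd r) ∨ r = 2) (hc : Fintype.card F = Nat.card F₀ ^ r) {P : GL (Fin 3) F}
    (hg : g ∈ subfieldSubgroup F₀ P) : False := by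
  have hl : l ^ (q ^ 2 - 1) = 1 := by
    rw [← hF]
    apply Units.ext
    rw [Units.val_pow_eq_pow_val, FiniteField.pow_card_sub_one_eq_one _ (Units.ne_zero l), Units.val_one]
  obtain ⟨y, hy, hyg⟩ := Subgroup.mem_map.1 hg
  obtain ⟨a, ha, z, hz, rfl⟩ := (Subgroup.mem_sup_of_normal_right (t := scalars (Fin 3) F)).1 hy
  obtain ⟨g0, hg0⟩ := MonoidHom.mem_range.1 ha
  obtain ⟨c, hzc⟩ := (mem_scalars_iff z).1 hz
  obtain ⟨φ, hφ, hφ0⟩ : ∃ φ : F →+* F, (∀ x, φ x = x ^ Nat.card F₀) ∧ ∀ x : F₀, φ (x : F) = x := by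
    classical
    have : Fintype F₀ := Fintype.ofFinite F₀
    refine ⟨(FiniteField.frobeniusAlgHom F₀ F : F →ₐ[F₀] F).toRingHom, fun x => ?_, fun x => ?_⟩
    · rw [Nat.card_eq_fintype_card]
      exact congrFun (FiniteField.coe_frobeniusAlgHom F₀ F) x
    · exact (FiniteField.frobeniusAlgHom F₀ F : F →ₐ[F₀] F).commutes x
  have hP1 : (P : Matrix (Fin 3) (Fin 3) F) * ((P⁻¹ : GL (Fin 3) F) : Matrix (Fin 3) (Fin 3) F) = 1 := by
    rw [← Units.val_mul, mul_inv_cancel, Units.val_one]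
  have hP2 : ((P⁻¹ : GL (Fin 3) F) : Matrix (Fin 3) (Fin 3) F) * (P : Matrix (Fin 3) (Fin 3) F) = 1 := by
    rw [← Units.val_mul, inv_mul_cancel, Units.val_one]
  have hAe : ∀ i j, φ ((a : Matrix (Fin 3) (Fin 3) F) i j) = (a : Matrix (Fin 3) (Fin 3) F) i j := by
    intro i j
    rw [← hg0]
    exact hφ0 _
  have hPgP : (g : Matrix (Fin 3) (Fin 3) F) * (P : Matrix (Fin 3) (Fin 3) F) =
      (c : F) • ((P : Matrix (Fin 3) (Fin 3) F) * (a : Matrix (Fin 3) (Fin 3) F)) := by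
    have h1 : P * (a * z) * P⁻¹ = g := hyg
    rw [← h1, ← Units.val_mul, inv_mul_cancel_right, Units.val_mul, Units.val_mul, hzc, Matrix.mul_smul,
      Matrix.mul_smul, Matrix.mul_one]
  apply R.no_frob hl (by rw [← hF, hc] : Nat.card F₀ ^ r = q ^ 2) hr (c := (c : F) * φ ((c : F)⁻¹))
  · intro i
    obtain ⟨j, hj⟩ := R.frob_step φ (Units.ne_zero c) hAe hPgP hP1 hP2 i
    exact ⟨j, by rw [hj, hφ ((tt q l i : Fˣ) : F)]⟩
  · intro i j h
    rw [← hφ, ← hφ] at h
    exact R.inj (φ.injective h)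

/-- normalisers of groups of order 27 -/
theorem case_seven (hq : 11 ≤ q) {A : Subgroup (GL (Fin 3) F)} (hirr : ActsAbsolutelyIrreducibly (matrixSet A))
    (hA : Nat.card A = 27) (hg : g ∈ subgroupNormalizer A) : False := by
  classical
  have hfin : Finite A := Nat.finite_of_card_ne_zero (by rw [hA]; norm_num)
  have hfix : ∀ x ∈ A, ∃ c : F, (x : Matrix (Fin 3) (Fin 3) F) *ᵥ b 1 = c • b 1 := by
    intro x hx
    have hn : ∀ k : ℕ, g ^ k * x * (g ^ k)⁻¹ ∈ A := by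
      intro k
      exact (Subgroup.mem_normalizer_iff.1 (Subgroup.pow_mem _ hg k) x).1 hx
    let f : Fin 28 → A := fun k => ⟨_, hn k⟩
    obtain ⟨i, j, hij, h⟩ : ∃ i j, i < j ∧ f i = f j := by
      have h1 : ¬ Function.Injective f := by
        intro h2
        have h3 := Nat.card_le_card_of_injective f h2
        rw [hA, Nat.card_fin] at h3
        omega
      simp only [Function.Injective, not_forall] at h1
      obtain ⟨i, j, h2, h3⟩ := h1
      rcases lt_or_gt_of_ne h3 with h4 | h4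
      · exact ⟨i, j, h4, h2⟩
      · exact ⟨j, i, h4, h2.symm⟩
    have h1 : g ^ (i : ℕ) * x * (g ^ (i : ℕ))⁻¹ = g ^ (j : ℕ) * x * (g ^ (j : ℕ))⁻¹ := congrArg Subtype.val h
    have hij' : (i : ℕ) < j := hij
    have hj := j.2
    obtain ⟨m, hm⟩ : ∃ m, (j : ℕ) = i + m := ⟨j - i, by omega⟩
    have h2 : x * g ^ m = g ^ m * x := by
      rw [hm, pow_add] at h1
      have h3 : g ^ (i : ℕ) * x * (g ^ (i : ℕ))⁻¹ = g ^ (i : ℕ) * (g ^ m * x * (g ^ m)⁻¹) * (g ^ (i : ℕ))⁻¹ := by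
        rw [h1]; group
      have h4 := mul_left_cancel (mul_right_cancel h3)
      rw [eq_mul_inv_iff_mul_eq] at h4
      exact h4
    apply R.fix_one (m := m)
    · intro h3
      have h4 := Nat.le_of_dvd (by omega) h3
      have h5 : 121 ≤ q ^ 2 := by nlinarith
      omega
    · rw [← Units.val_mul, h2, Units.val_mul]
  have h1 := hirr.1 (Submodule.span F {b 1}) (by
    rintro _ ⟨x, hx, rfl⟩
    rw [Submodule.map_span, Submodule.span_le, Set.image_singleton, Set.singleton_subset_iff, Matrix.toLin'_apply]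
    obtain ⟨c, hc⟩ := hfix x hx
    rw [hc]
    exact Submodule.smul_mem _ _ (Submodule.mem_span_singleton_self _))
  rcases h1 with h1 | h1
  · rw [Submodule.span_singleton_eq_bot] at h1
    exact b.ne_zero 1 h1
  · have h2 : b 0 ∈ Submodule.span F {b 1} := by rw [h1]; trivial
    obtain ⟨c, hc⟩ := Submodule.mem_span_singleton.1 h2
    have h3 := congrArg (fun v => b.repr v 0) hc
    simp [b.repr_self] at h3

end Reg

end Cfsg.Agent.H987.R1
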