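import Cfsg.Agent.H987.R1.GeoB
import Cfsg.Agent.H907.SU3Cases
import Cfsg.Agent.H907.MxBase

/-!
# Proper subgroups of `SU(3,q)` which contain a regular element fix a line of its basis (helper987, S5745 OwnR1)
-/

set_option autoImplicit false

namespace Cfsg.Agent.H987.R1

open Matrix Module Cfsg Cfsg.Geo

variable {F : Type*} [Field F] [Fintype F]

namespace Reg

variable {q : ℕ} {l : Fˣ} {b : Basis (Fin 3) F (Fin 3 → F)} {g : GL (Fin 3) F} (R : Reg q l b g)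

include R

theorem fix_line (hF : Fintype.card F = q ^ 2)
    (h00 : hermForm 3 F q (b 0) (b 0) = 0) (h22 : hermForm 3 F q (b 2) (b 2) = 0)
    (h11 : hermForm 3 F q (b 1) (b 1) ≠ 0) (h02 : hermForm 3 F q (b 0) (b 2) ≠ 0)
    {H : Subgroup (GL (Fin 3) F)} (hH : IsMaximalIn (GU 3 F q ⊓ specialLinear (Fin 3) F) H) (hg : g ∈ H)
    (hres : ¬ InUnitaryResidualClass H) : ∃ i, ∀ h ∈ H, Fix h (b i) := by
  have h4 := R.four_le
  rcases Cfsg.Agent.H907.SU3.su3_cases q hF (by omega) H hH with ⟨W, hW, hs, rfl⟩ | ⟨W, hW, -, hs, rfl⟩ |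
    ⟨-, D, hD, rfl⟩ | ⟨-, -, K, hK, -, rfl⟩ | ⟨F₀, r, P, hr, hr', hc, -, rfl⟩ | ⟨-, -, F₀, P, hc, -, rfl⟩ |
    ⟨p, A, -, hqp, -, hp, -, hirr, -, hA, -, rfl⟩ | h
  · obtain ⟨i, hi⟩ := R.case_one hW hs h11 h02 hg.1
    exact ⟨i, fun h hh => hi h hh.1⟩
  · obtain ⟨i, hi⟩ := R.case_two hW hs hg.1
    exact ⟨i, fun h hh => hi h hh.1⟩
  · exact (R.case_three hD h00 h22 hg.1).elim
  · exact (R.case_four hK hg.1).elim
  · exact (R.case_five hF (Or.inl ⟨hr, hr'⟩) hc hg.1).elim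
  · exact (R.case_five hF (Or.inr rfl) hc hg.1).elim
  · exact (R.case_seven (by omega) hirr hA hg.1).elim
  · exact absurd h hres

theorem fix_line_of_lt (hF : Fintype.card F = q ^ 2)
    (h00 : hermForm 3 F q (b 0) (b 0) = 0) (h22 : hermForm 3 F q (b 2) (b 2) = 0)
    (h11 : hermForm 3 F q (b 1) (b 1) ≠ 0) (h02 : hermForm 3 F q (b 0) (b 2) ≠ 0)
    (hres : ∀ H, IsMaximalIn (GU 3 F q ⊓ specialLinear (Fin 3) F) H → g ∈ H → ¬ InUnitaryResidualClass H)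
    {K : Subgroup (GL (Fin 3) F)} (hK : K < GU 3 F q ⊓ specialLinear (Fin 3) F) (hg : g ∈ K) :
    ∃ i, ∀ h ∈ K, Fix h (b i) := by
  obtain ⟨M, hM, hKM⟩ := Cfsg.Agent.H905.exists_isMaximalIn_of_lt hK
  obtain ⟨i, hi⟩ := R.fix_line hF h00 h22 h11 h02 hM (hKM hg) (hres M hM (hKM hg))
  exact ⟨i, fun h hh => hi h (hKM hh)⟩

end Reg

end Cfsg.Agent.H987.R1
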