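import Cfsg.Agent.H987.R1.Data

/-!
# The rank one data of `PSU(3,q)`: `[U, T0] = U`, `C(T0) = T0` (helper987, S5745 OwnR1)
-/

set_option autoImplicit false
set_option linter.unusedSectionVars false

namespace Cfsg.Agent.H987.R1

open Matrix Subgroup
open Cfsg.Agent Cfsg.Agent.UThreeGen.MatGroup
open Cfsg.Agent.HKS.EndU (tor tmat tor_val tor_mem act tor_emb ci ci_val wel_tor exists_tor tor_mem_center sne
  eq_of_emb_mul)
open Cfsg.Agent.H212.U3.Model (exists_a exists_equiv card_HG card_SUG card_borel index_borel card_range emb_mem)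
open Cfsg.Agent.H284 (cj mem_cj conj_mem_cj)

namespace Ctx

variable {F : Type*} [Field F] [Fintype F] {q : ℕ} {σ : F →+* F} [hσ : Fact (∀ x, σ (σ x) = x)] {T : Type*}
  [Group T] {π : SUG σ →* T} (C : Ctx q σ π)

include C

/-- a generator of the multiplicative group -/
theorem gen : ∃ l : Fˣ, (∀ k : ℕ, l ^ k = 1 → q ^ 2 - 1 ∣ k) ∧ ∀ m : Fˣ, ∃ k : ℕ, m = l ^ k := by
  classical
  obtain ⟨l, hl⟩ := IsCyclic.exists_generator (α := Fˣ)
  refine ⟨l, fun k hk => ?_, fun m => ?_⟩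
  · have h1 := orderOf_eq_card_of_forall_mem_zpowers hl
    rw [Nat.card_units, Nat.card_eq_fintype_card, C.hF] at h1
    rw [← h1]
    exact orderOf_dvd_of_pow_eq_one hk
  · have h1 := hl m
    rw [← mem_powers_iff_mem_zpowers] at h1
    obtain ⟨k, hk⟩ := h1
    exact ⟨k, hk.symm⟩

theorem sig_units (l : Fˣ) : σ (l : F) = ((l ^ q : Fˣ) : F) := by
  rw [C.hs, Units.val_pow_eq_pow_val]

theorem pow_q (l : Fˣ) : l ^ (q ^ 2 - 1) = 1 := by
  rw [← C.hF]
  apply Units.ext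
  rw [Units.val_pow_eq_pow_val, FiniteField.pow_card_sub_one_eq_one _ (Units.ne_zero l), Units.val_one]

/-- for a generator `l ^ 2 ≠ σ l` and `l * σ l ≠ 1` -/
theorem gen_ne {l : Fˣ} (hl : ∀ k : ℕ, l ^ k = 1 → q ^ 2 - 1 ∣ k) :
    (l : F) ^ 2 / σ (l : F) ≠ 1 ∧ (l : F) * σ (l : F) ≠ 1 := by
  have h4 := C.q4
  have h16 : 4 * q ≤ q ^ 2 := by nlinarith
  constructor
  · rw [Ne, div_eq_one_iff_eq (sne l), C.sig_units, ← Units.val_pow_eq_pow_val, Units.val_inj]
    intro h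
    have h1 : l ^ (q - 2) = 1 := by
      have h2 : l ^ q = l ^ (q - 2) * l ^ 2 := by
        rw [← pow_add]; congr 1; omega
      rw [h2] at h
      exact (right_eq_mul.1 h)
    have h3 := Nat.le_of_dvd (by omega) (hl _ h1)
    omega
  · rw [C.sig_units, ← Units.val_mul, ← Units.val_one, Ne, Units.val_inj, ← pow_succ']
    intro h
    have h3 := Nat.le_of_dvd (by omega) (hl _ h)
    omega

theorem pi_emb_inj {x y : HG σ} (h : π (emb σ x) = π (emb σ y)) : x = y := by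
  obtain ⟨z, hz, e⟩ := C.eq_mul h
  exact eq_of_emb_mul hz e

theorem conj_act (l : Fˣ) (x : HG σ) :
    π (tor σ l) * π (emb σ x) * (π (tor σ l))⁻¹ = π (emb σ (act l x)) := by
  rw [← map_mul, tor_emb, map_mul, mul_inv_cancel_right]

theorem fix_eq_one {x : HG σ} (h : ∀ l : Fˣ, act l x = x) : x = 1 := by
  obtain ⟨l, hl, -⟩ := C.gen
  obtain ⟨h1, h2⟩ := C.gen_ne hl
  have h3 := h l
  have h4 := congrArg HG.a h3
  have h5 := congrArg HG.b h3
  simp only [act] at h4 h5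
  ext
  · by_contra h6
    exact h1 (mul_right_cancel₀ h6 (h4.trans (one_mul _).symm))
  · by_contra h6
    exact h2 (mul_right_cancel₀ h6 (h5.trans (one_mul _).symm))

variable (p : ℕ) [Fact p.Prime] [CharP F p]

theorem comm (X : Subgroup T) (hX : X ≤ (C.dat p).U)
    (h : ∀ u ∈ (C.dat p).U, ∀ t ∈ (C.dat p).T0, u * t * u⁻¹ * t⁻¹ ∈ X) : X = (C.dat p).U := by
  apply le_antisymm hX
  obtain ⟨l, hl, -⟩ := C.gen
  obtain ⟨h1, h2⟩ := C.gen_ne hl
  have key : ∀ x : HG σ, π (emb σ (x * act l x⁻¹)) ∈ X := by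
    intro x
    have h3 := h (π (emb σ x)) (Subgroup.mem_map_of_mem π ⟨x, rfl⟩) (π (tor σ l)) ((C.mem_T0 p).2 ⟨l, rfl⟩)
    have h4 : π (emb σ x) * π (tor σ l) * (π (emb σ x))⁻¹ * (π (tor σ l))⁻¹ = π (emb σ (x * act l x⁻¹)) := by
      rw [map_mul (emb σ), map_mul π, ← C.conj_act, map_inv (emb σ), map_inv π]
      group
    rwa [h4] at h3
  have hA : ∀ a : F, ∃ y : HG σ, y.a = a ∧ π (emb σ y) ∈ X := by
    intro a
    obtain ⟨x, hx⟩ := exists_a (σ := σ) C.hF C.hs (a / (1 - (l : F) ^ 2 / σ (l : F)))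
    refine ⟨_, ?_, key x⟩
    have h5 : 1 - (l : F) ^ 2 / σ (l : F) ≠ 0 := sub_ne_zero.2 (Ne.symm h1)
    rw [mul_a]
    simp only [act, inv_a, hx]
    generalize (l : F) ^ 2 / σ (l : F) = μ at *
    field_simp
    ring
  have hZ : ∀ y : HG σ, y.a = 0 → π (emb σ y) ∈ X := by
    intro y hy
    set ν : F := (l : F) * σ (l : F) with hν
    have hν1 : 1 - ν ≠ 0 := sub_ne_zero.2 (Ne.symm h2)
    have hσν : σ ν = ν := by rw [hν, map_mul, sig, mul_comm]
    have hyb : y.b + σ y.b = 0 := by have := y.h; rwa [hy, zero_mul] at this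
    have hx : y.b / (1 - ν) + σ (y.b / (1 - ν)) = (0 : F) * σ 0 := by
      rw [map_div₀, map_sub, map_one, hσν, ← add_div, hyb, zero_div, zero_mul]
    have h3 := key ⟨0, y.b / (1 - ν), hx⟩
    have h4 : (⟨0, y.b / (1 - ν), hx⟩ : HG σ) * act l (⟨0, y.b / (1 - ν), hx⟩ : HG σ)⁻¹ = y := by
      ext
      · simp [act, hy]
      · rw [mul_b]
        simp only [act, inv_b, inv_a, zero_mul, add_zero]
        have h5 : σ (y.b / (1 - ν)) = - (y.b / (1 - ν)) := by
          rw [map_div₀, map_sub, map_one, hσν]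
          rw [← neg_div]
          congr 1
          linear_combination hyb
        rw [h5, ← hν]
        field_simp
        ring
    rwa [h4] at h3
  rintro _ ⟨_, ⟨x, rfl⟩, rfl⟩
  obtain ⟨y, hy, hyX⟩ := hA x.a
  have h3 : π (emb σ (y⁻¹ * x)) ∈ X := hZ _ (by rw [mul_a, inv_a, hy, neg_add_cancel])
  have h4 := X.mul_mem hyX h3
  rw [← map_mul, ← map_mul, mul_inv_cancel_left] at h4
  exact h4

/-- an element of `U` which normalises `T0` is trivial -/
theorem U_norm {u : T} (hu : u ∈ (C.dat p).U) (h : ∀ t ∈ (C.dat p).T0, u⁻¹ * t * u ∈ (C.dat p).T0) : u = 1 := by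
  obtain ⟨_, ⟨x, rfl⟩, rfl⟩ := hu
  have h1 : x = 1 := by
    apply C.fix_eq_one
    intro l
    have h2 := h _ ((C.mem_T0 p).2 ⟨l, rfl⟩)
    have h3 : (π (emb σ x))⁻¹ * π (tor σ l) * π (emb σ x) * (π (tor σ l))⁻¹ ∈ (C.dat p).U ⊓ cj (C.dat p).w (C.dat p).B := by
      refine ⟨?_, ?_⟩
      · have h4 : (π (emb σ x))⁻¹ * π (tor σ l) * π (emb σ x) * (π (tor σ l))⁻¹ = π (emb σ (x⁻¹ * act l x)) := by
          rw [map_mul (emb σ), map_mul π, ← C.conj_act, map_inv (emb σ), map_inv π]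
          group
        rw [h4]
        exact Subgroup.mem_map_of_mem π ⟨_, rfl⟩
      · have h4 : π (tor σ l) ∈ (C.dat p).T0 := (C.mem_T0 p).2 ⟨l, rfl⟩
        have h5 : (π (emb σ x))⁻¹ * π (tor σ l) * π (emb σ x) * (π (tor σ l))⁻¹ ∈ (C.dat p).T0 := mul_mem h2 (inv_mem h4)
        exact h5.2
    rw [(C.dat p).ti, Subgroup.mem_bot, mul_inv_eq_one, mul_assoc, inv_mul_eq_iff_eq_mul] at h3
    have h4 := C.conj_act l x
    rw [h3, mul_inv_cancel_right] at h4
    exact (C.pi_emb_inj h4).symm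
  rw [h1, map_one, map_one]

/-- the conjugates of `B` which contain `T0` -/
theorem two_fix {g : T} (hg : g ∉ (C.dat p).B) (h : (C.dat p).T0 ≤ cj g (C.dat p).B) :
    ∃ b ∈ (C.dat p).B, g = (C.dat p).w * b := by
  obtain ⟨u, hu, b, hb, rfl⟩ := (C.dat p).tr g hg
  have h1 : u = 1 := by
    apply C.U_norm p hu
    intro t ht
    refine ⟨?_, ?_⟩
    · exact (C.dat p).B.mul_mem ((C.dat p).B.mul_mem ((C.dat p).B.inv_mem ((C.dat p).U_le hu)) ht.1) ((C.dat p).U_le hu)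
    · have h2 := h ht
      rw [mem_cj] at h2
      show u⁻¹ * t * u ∈ cj (C.dat p).w (C.dat p).B
      rw [mem_cj]
      have h3 := mul_mem (mul_mem hb h2) (inv_mem hb)
      have h4 : b * ((u * (C.dat p).w * b)⁻¹ * t * (u * (C.dat p).w * b)) * b⁻¹ =
        (C.dat p).w⁻¹ * (u⁻¹ * t * u) * (C.dat p).w := by group
      rwa [h4] at h3
  exact ⟨b, hb, by rw [h1, one_mul]⟩

/-- `C(T0) = T0` -/
theorem cent {x : T} (h : ∀ t ∈ (C.dat p).T0, x * t = t * x) : x ∈ (C.dat p).T0 := by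
  have hx : ∀ t ∈ (C.dat p).T0, x⁻¹ * t * x = t := by
    intro t ht
    rw [mul_assoc, ← h t ht, inv_mul_cancel_left]
  by_cases hB : x ∈ (C.dat p).B
  · obtain ⟨u, hu, t, ht, rfl⟩ := (C.dat p).exists_UT hB
    have h1 : u = 1 := by
      apply C.U_norm p hu
      intro s hs
      have h2 := hx s hs
      have h3 : u⁻¹ * s * u = t * ((u * t)⁻¹ * s * (u * t)) * t⁻¹ := by group
      rw [h3, h2]
      exact mul_mem (mul_mem ht hs) (inv_mem ht)
    rw [h1, one_mul]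
    exact ht
  · exfalso
    obtain ⟨b, hb, rfl⟩ := C.two_fix p hB (by
      intro t ht
      rw [mem_cj, hx t ht]
      exact ht.1)
    obtain ⟨u, hu, t, ht, rfl⟩ := (C.dat p).exists_UT hb
    have hwT : ∀ s ∈ (C.dat p).T0, (C.dat p).w⁻¹ * s * (C.dat p).w ∈ (C.dat p).T0 := by
      intro s hs
      obtain ⟨l, rfl⟩ := (C.mem_T0 p).1 hs
      rw [C.mem_T0 p]
      refine ⟨ci σ l, ?_⟩
      show (π (wel σ))⁻¹ * π (tor σ l) * π (wel σ) = _
      rw [← map_inv, ← map_mul, ← map_mul, wel_inv, wel_tor]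
    have hwT' : ∀ s ∈ (C.dat p).T0, (C.dat p).w * s * (C.dat p).w⁻¹ ∈ (C.dat p).T0 := by
      intro s hs
      obtain ⟨l, rfl⟩ := (C.mem_T0 p).1 hs
      rw [C.mem_T0 p]
      refine ⟨ci σ l, ?_⟩
      show π (wel σ) * π (tor σ l) * (π (wel σ))⁻¹ = _
      rw [← map_inv, ← map_mul, ← map_mul, wel_inv, wel_tor]
    have h1 : u = 1 := by
      apply C.U_norm p hu
      intro s hs
      have h2 := hx _ (hwT' s hs)
      have h3 : u⁻¹ * s * u = t * (((C.dat p).w * (u * t))⁻¹ * ((C.dat p).w * s * (C.dat p).w⁻¹) *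
        ((C.dat p).w * (u * t))) * t⁻¹ := by group
      rw [h3, h2]
      exact mul_mem (mul_mem ht (hwT' s hs)) (inv_mem ht)
    subst h1
    obtain ⟨l, hl, -⟩ := C.gen
    have h5 := hx _ ((C.mem_T0 p).2 ⟨l, rfl⟩)
    obtain ⟨m, rfl⟩ := (C.mem_T0 p).1 ht
    have h6 : π (tor σ l) = π (tor σ (ci σ l)) := by
      have h7 : (π (wel σ) * (1 * π (tor σ m)))⁻¹ * π (tor σ l) * (π (wel σ) * (1 * π (tor σ m))) =
          (π (tor σ m))⁻¹ * (π (wel σ) * π (tor σ l) * π (wel σ)) * π (tor σ m) := by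
        have h8 : (π (wel σ))⁻¹ = π (wel σ) := by rw [← map_inv, wel_inv]
        rw [one_mul, _root_.mul_inv_rev, h8]
        group
      have h9 : π (tor σ l) = (π (tor σ m))⁻¹ * (π (wel σ) * π (tor σ l) * π (wel σ)) * π (tor σ m) := by
        rw [← h7]; exact h5.symm
      rw [h9, ← map_mul, ← map_mul, wel_tor, ← map_inv, ← map_mul, ← map_mul, ← map_inv, ← map_mul, ← map_mul,
        mul_comm m⁻¹, inv_mul_cancel_right]
    obtain ⟨z, hz, h7⟩ := C.eq_mul h6
    obtain ⟨c, rfl, hc⟩ := C.cen_tor hz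
    rw [← map_mul] at h7
    have hinj : ∀ l m : Fˣ, tor σ l = tor σ m → l = m := by
      intro l m h
      apply Units.ext
      have h8 := congrArg (fun g : SUG σ => g.1.1 0 0) h
      simpa [tor_val, tmat] using h8
    have h8 := hinj _ _ h7
    have hsl := sne (σ := σ) l
    have h9 : (c : F) = (l : F) * σ (l : F) := by
      have h10 := congrArg (fun u : Fˣ => (u : F)) h8
      simp only [Units.val_mul, ci_val] at h10
      rw [inv_mul_eq_div, eq_div_iff hsl] at h10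
      exact h10.symm
    have h10 : σ (c : F) = c := by
      rw [h9, map_mul, sig, mul_comm]
    rw [h10, sq] at hc
    have h11 : (c : F) = 1 := mul_left_cancel₀ (Units.ne_zero c) (hc.trans (mul_one _).symm)
    exact (C.gen_ne hl).2 (h9.symm.trans h11)

end Ctx

end Cfsg.Agent.H987.R1
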