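import Cfsg.Agent.H987.R1.HypA

/-!
# The rank one data of `PSU(3,q)`: automorphisms of the unipotent group (helper987, S5745 OwnR1)
-/

set_option autoImplicit false
set_option linter.unusedSectionVars false

namespace Cfsg.Agent.H987.R1

open Matrix Subgroup
open Cfsg.Agent Cfsg.Agent.UThreeGen.MatGroup
open Cfsg.Agent.HKS.EndU (tor tmat tor_val tor_mem act tor_emb ci ci_val wel_tor exists_tor tor_mem_center sne
  eq_of_emb_mul comm_of_a)
open Cfsg.Agent.H212.U3.Model (exists_a exists_equiv card_HG card_SUG card_borel index_borel card_range emb_mem)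
open Cfsg.Agent.H284 (cj mem_cj conj_mem_cj)

theorem eq_one_of_pow_two {F : Type*} [Field F] [CharP F 2] {c : F} {m : ℕ} (h : c ^ 2 ^ m = 1) : c = 1 := by
  induction m with
  | zero => simpa using h
  | succ m ih =>
    apply ih
    rw [pow_succ, pow_mul] at h
    have h0 : (c ^ 2 ^ m - 1) * (c ^ 2 ^ m + 1) = 0 := by linear_combination h
    rcases mul_eq_zero.1 h0 with h1 | h1
    · exact sub_eq_zero.1 h1
    · exact CharTwo.add_eq_zero.1 h1

namespace Ctx

variable {F : Type*} [Field F] [Fintype F] {q : ℕ} {σ : F →+* F} [hσ : Fact (∀ x, σ (σ x) = x)] {T : Type*}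
  [Group T] {π : SUG σ →* T} (C : Ctx q σ π)

include C

theorem ex_norm {c : F} (hc : σ c = c) : ∃ v : F, v * σ v = c :=
  UThreeGen.Recog.exists_norm (σ := σ) (by have := C.q4; omega) C.hs (by rw [Nat.card_eq_fintype_card, C.hF]) hc

theorem ex_norm_units {c : F} (hc : σ c = c) (h0 : c ≠ 0) : ∃ v : Fˣ, (v : F) * σ (v : F) = c := by
  obtain ⟨v, hv⟩ := C.ex_norm hc
  have : v ≠ 0 := by
    rintro rfl
    rw [zero_mul] at hv
    exact h0 hv.symm
  exact ⟨Units.mk0 v this, hv⟩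

theorem ex_not_fixed : ∃ c : F, σ c ≠ c := by
  obtain ⟨c, hc⟩ := LieClassical.HermBasic.exists_not_fixed (F := F) (q := q) C.hF
  rw [← C.hs] at hc
  exact ⟨c, hc⟩

theorem a_zero {x : HG σ} (h : ∀ y : HG σ, x * y = y * x) : x.a = 0 := by
  obtain ⟨y, hy⟩ := exists_a (σ := σ) C.hF C.hs 1
  have h1 := congrArg HG.b (h y)
  rw [mul_b, mul_b, hy, map_one, mul_one, one_mul] at h1
  have h2 : x.a = σ x.a := by linear_combination h1
  obtain ⟨c, hc⟩ := C.ex_not_fixed
  obtain ⟨z, hz⟩ := exists_a (σ := σ) C.hF C.hs c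
  have h3 := congrArg HG.b (h z)
  rw [mul_b, mul_b, hz] at h3
  have h4 : x.a * (σ c - c) = 0 := by
    linear_combination h3 - c * h2
  exact (mul_eq_zero.1 h4).resolve_right (sub_ne_zero.2 hc)

theorem map_zero_a (ψ : HG σ ≃* HG σ) {x : HG σ} (hx : x.a = 0) : (ψ x).a = 0 := by
  apply C.a_zero
  intro y
  obtain ⟨y, rfl⟩ := ψ.surjective y
  rw [← map_mul, ← map_mul, comm_of_a hx y]

/-- elements with the same first coordinate have images with the same first coordinate -/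
theorem map_a_congr (ψ : HG σ ≃* HG σ) {x y : HG σ} (h : x.a = y.a) : (ψ x).a = (ψ y).a := by
  have h1 : (x⁻¹ * y).a = 0 := by rw [mul_a, inv_a, h, neg_add_cancel]
  have h2 := C.map_zero_a ψ h1
  rw [map_mul, map_inv, mul_a, inv_a] at h2
  linear_combination -h2

theorem linear_a (ψ : HG σ ≃* HG σ) (h : ∀ (l : Fˣ) (x : HG σ), ψ (act l x) = act l (ψ x)) :
    ∃ c : F, ∀ x : HG σ, (ψ x).a = x.a * c := by
  obtain ⟨x1, hx1⟩ := exists_a (σ := σ) C.hF C.hs 1
  refine ⟨(ψ x1).a, ?_⟩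
  obtain ⟨l, hl, -⟩ := C.gen
  have h4 := C.q4
  set μ : F := (l : F) ^ 2 / σ (l : F) with hμ
  have hfix : ∀ (α : F), σ α = α → ∀ x : HG σ, x.a = α → (ψ x).a = α * (ψ x1).a := by
    intro α hα x hx
    by_cases h0 : α = 0
    · rw [C.map_zero_a ψ (hx.trans h0), h0, zero_mul]
    · have h1 : (act (Units.mk0 α h0) x1 : HG σ).a = α := by
        simp only [act, hx1, Units.val_mk0, hα, mul_one]
        field_simp
      rw [C.map_a_congr ψ (hx.trans h1.symm), h]
      simp only [act, Units.val_mk0, hα]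
      field_simp
  have hμ1 : σ μ ≠ μ := by
    rw [hμ, map_div₀, map_pow, sig]
    intro h1
    have hl0 : (l : F) ≠ 0 := l.ne_zero
    have hs0 : σ (l : F) ≠ 0 := sne l
    rw [div_eq_div_iff hl0 hs0, ← pow_succ, ← pow_succ, C.sig_units, ← Units.val_pow_eq_pow_val,
      ← Units.val_pow_eq_pow_val, Units.val_inj, ← pow_mul] at h1
    have h2 : l ^ ((q - 1) * 3) = 1 := by
      have h3 : l ^ (q * (2 + 1)) = l ^ ((q - 1) * 3) * l ^ 3 := by
        rw [← pow_add]; congr 1; omega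
      rw [h3] at h1
      exact mul_eq_right.1 h1
    have h3 := hl _ h2
    have h5 : (q - 1) * (q + 1) = q ^ 2 - 1 := by
      obtain ⟨k, rfl⟩ : ∃ k, q = k + 1 := ⟨q - 1, by omega⟩
      have : (k + 1) ^ 2 = k * (k + 2) + 1 := by ring
      rw [this]
      simp
    rw [← h5] at h3
    have h6 := Nat.le_of_dvd (by norm_num) (Nat.dvd_of_mul_dvd_mul_left (by omega) h3)
    omega
  intro x
  have hμ2 : μ - σ μ ≠ 0 := sub_ne_zero.2 (Ne.symm hμ1)
  have hμ3 : σ μ - μ ≠ 0 := sub_ne_zero.2 hμ1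
  set β : F := (x.a - σ x.a) / (μ - σ μ) with hβ
  have hβ1 : σ β = β := by
    rw [hβ, map_div₀, map_sub, map_sub, sig, sig, div_eq_div_iff hμ3 hμ2]
    ring
  have hβ2 : β * (μ - σ μ) = x.a - σ x.a := by rw [hβ]; field_simp
  have hα1 : σ (x.a - μ * β) = x.a - μ * β := by
    rw [map_sub, map_mul, hβ1]
    linear_combination hβ2
  obtain ⟨y, hy⟩ := exists_a (σ := σ) C.hF C.hs (x.a - μ * β)
  obtain ⟨z, hz⟩ := exists_a (σ := σ) C.hF C.hs β
  have h1 := hfix _ hα1 y hy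
  have h2 := hfix _ hβ1 z hz
  have h3 : x.a = (y * act l z : HG σ).a := by
    rw [mul_a, hy]
    simp only [act, hz, ← hμ]
    ring
  rw [C.map_a_congr ψ h3, map_mul, mul_a, h, h1]
  simp only [act, ← hμ, h2]
  ring

/-- in characteristic two, a `2`-automorphism which commutes with the torus is trivial -/
theorem p2_aux [CharP F 2] (ψ : MulAut (HG σ)) (h : ∀ (l : Fˣ) (x : HG σ), ψ (act l x) = act l (ψ x)) {m : ℕ}
    (hm : ψ ^ 2 ^ m = 1) : ψ = 1 := by
  have h4 := C.q4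
  -- the centre
  have hz1 : (1 : F) + σ 1 = 0 * σ 0 := by
    rw [map_one, zero_mul, CharTwo.add_self_eq_zero]
  set z1 : HG σ := ⟨0, 1, hz1⟩ with hz1'
  have hcen : ∀ x : HG σ, x.a = 0 → (ψ x).b = x.b * (ψ z1).b := by
    intro x hx
    by_cases h0 : x.b = 0
    · have : x = 1 := HG.ext hx h0
      rw [this, map_one, one_b, zero_mul]
    · have h1 : σ x.b = x.b := by
        have h2 := x.h
        rw [hx, zero_mul, CharTwo.add_eq_zero] at h2
        exact h2.symm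
      obtain ⟨v, hv⟩ := C.ex_norm_units h1 h0
      have h2 : x = act v z1 := by
        ext
        · simp [act, z1, hx]
        · simp [act, z1, hv]
      rw [h2, h]
      simp [act, z1, hv]
  have hz1a : (ψ z1).a = 0 := C.map_zero_a ψ rfl
  have hpowz : ∀ k : ℕ, ((ψ ^ k) z1).a = 0 ∧ ((ψ ^ k) z1).b = (ψ z1).b ^ k := by
    intro k
    induction k with
    | zero => exact ⟨rfl, by simp [z1]⟩
    | succ k ih =>
      rw [pow_succ', MulAut.mul_apply]
      exact ⟨C.map_zero_a ψ ih.1, by rw [hcen _ ih.1, ih.2, pow_succ]⟩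
  have hc1 : (ψ z1).b = 1 := by
    apply eq_one_of_pow_two (m := m)
    rw [← (hpowz _).2, hm]
    rfl
  have hcen' : ∀ x : HG σ, x.a = 0 → ψ x = x := by
    intro x hx
    ext
    · rw [C.map_zero_a ψ hx, hx]
    · rw [hcen x hx, hc1, mul_one]
  -- the quotient
  obtain ⟨c, hc⟩ := C.linear_a ψ h
  have hpow : ∀ (k : ℕ) (x : HG σ), ((ψ ^ k) x).a = x.a * c ^ k := by
    intro k
    induction k with
    | zero => intro x; simp
    | succ k ih =>
      intro x
      rw [pow_succ', MulAut.mul_apply, hc, ih, pow_succ]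
      ring
  have hc2 : c = 1 := by
    apply eq_one_of_pow_two (m := m)
    obtain ⟨x1, hx1⟩ := exists_a (σ := σ) C.hF C.hs 1
    have h1 := hpow (2 ^ m) x1
    rw [hm, hx1, one_mul] at h1
    rw [← h1]
    exact hx1
  have ha : ∀ x : HG σ, (ψ x).a = x.a := fun x => by rw [hc, hc2, mul_one]
  -- the displacement
  obtain ⟨l0, hl0, -⟩ := C.gen
  set l : Fˣ := l0 ^ (q - 1) with hl
  have h5 : (q - 1) * (q + 1) = q ^ 2 - 1 := by
    obtain ⟨k, rfl⟩ : ∃ k, q = k + 1 := ⟨q - 1, by omega⟩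
    have : (k + 1) ^ 2 = k * (k + 2) + 1 := by ring
    rw [this]
    simp
  have hN : (l : F) * σ (l : F) = 1 := by
    rw [C.sig_units, ← Units.val_mul, ← pow_succ', hl, ← pow_mul, h5, C.pow_q, Units.val_one]
  have hl3 : (l : F) ^ 3 ≠ 1 := by
    rw [← Units.val_pow_eq_pow_val, ← Units.val_one, Ne, Units.val_inj, hl, ← pow_mul]
    intro h6
    have h7 := hl0 _ h6
    rw [← h5] at h7
    have h6 := Nat.le_of_dvd (by norm_num) (Nat.dvd_of_mul_dvd_mul_left (by omega) h7)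
    omega
  have hμ : (l : F) ^ 2 / σ (l : F) = (l : F) ^ 3 := by
    rw [div_eq_iff (sne l)]
    linear_combination (-(l : F) ^ 2) * hN
  -- `D x = x⁻¹ * ψ x`
  have hDa : ∀ x : HG σ, (x⁻¹ * ψ x).a = 0 := by
    intro x; rw [mul_a, inv_a, ha, neg_add_cancel]
  have hDl : ∀ x : HG σ, (act l x)⁻¹ * ψ (act l x) = x⁻¹ * ψ x := by
    intro x
    have h6 : act l (x⁻¹ * ψ x) = x⁻¹ * ψ x := by
      ext
      · simp only [act, hDa x, mul_zero]
      · simp only [act, hN, one_mul]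
    have h7 : act l (x⁻¹ * ψ x) = (act l x)⁻¹ * act l (ψ x) := by
      apply emb_injective (σ := σ)
      have h8 : ∀ y : HG σ, emb σ (act l y) = tor σ l * emb σ y * (tor σ l)⁻¹ := by
        intro y; rw [tor_emb, mul_inv_cancel_right]
      rw [h8, map_mul, map_mul, map_inv, map_inv, h8, h8]
      group
    rw [h, ← h7, h6]
  have hDD : ∀ x y : HG σ, (x * y)⁻¹ * ψ (x * y) = (x⁻¹ * ψ x) * (y⁻¹ * ψ y) := by
    intro x y
    have h6 := comm_of_a (hDa x) (y⁻¹)
    rw [map_mul, _root_.mul_inv_rev]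
    calc y⁻¹ * x⁻¹ * (ψ x * ψ y) = (y⁻¹ * (x⁻¹ * ψ x)) * ψ y := by group
      _ = ((x⁻¹ * ψ x) * y⁻¹) * ψ y := by rw [h6]
      _ = _ := by group
  have hD1 : ∀ x : HG σ, x.a = 0 → x⁻¹ * ψ x = 1 := by
    intro x hx
    rw [hcen' x hx, inv_mul_cancel]
  ext1 x
  rw [MulAut.one_apply]
  have hl31 : (l : F) ^ 3 - 1 ≠ 0 := sub_ne_zero.2 hl3
  obtain ⟨y, hy⟩ := exists_a (σ := σ) C.hF C.hs (x.a / ((l : F) ^ 3 - 1))
  have h6 : ((act l y) * y⁻¹ : HG σ)⁻¹ * ψ ((act l y) * y⁻¹) = 1 := by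
    rw [hDD, hDl, ← hDD, mul_inv_cancel, map_one, inv_one, one_mul]
  have h7 : (((act l y) * y⁻¹ : HG σ)⁻¹ * x).a = 0 := by
    rw [mul_a, inv_a, mul_a, inv_a, hy]
    simp only [act, hy, hμ]
    generalize (l : F) ^ 3 = k at *
    field_simp
    ring
  have h8 : x⁻¹ * ψ x = 1 := by
    have h9 := hDD ((act l y) * y⁻¹) (((act l y) * y⁻¹)⁻¹ * x)
    rw [mul_inv_cancel_left, h6, hD1 _ h7, one_mul] at h9
    exact h9
  rwa [inv_mul_eq_one, eq_comm] at h8

end Ctx

end Cfsg.Agent.H987.R1
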