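import Cfsg.Agent.H987.R1.HypB

/-!
# The rank one data of `PSU(3,q)`: automorphisms which centralise the torus (helper987, S5745 OwnR1)
-/

set_option autoImplicit false
set_option linter.unusedSectionVars false

namespace Cfsg.Agent.H987.R1

open Matrix Subgroup
open Cfsg.Agent Cfsg.Agent.UThreeGen.MatGroup
open Cfsg.Agent.HKS.EndU (tor tmat tor_val tor_mem act tor_emb ci ci_val wel_tor exists_tor tor_mem_center sne
  eq_of_emb_mul comm_of_a)
open Cfsg.Agent.H212.U3.Model (exists_a exists_equiv card_HG card_SUG card_borel index_borel card_range emb_mem)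
open Cfsg.Agent.H284 (cj mem_cj conj_mem_cj)

namespace Ctx

variable {F : Type*} [Field F] [Fintype F] {q : ℕ} {σ : F →+* F} [hσ : Fact (∀ x, σ (σ x) = x)] {T : Type*}
  [Group T] {π : SUG σ →* T} (C : Ctx q σ π)

include C

theorem act_ci (l : Fˣ) (x : HG σ) : (act (ci σ l) x : HG σ).b = ((l : F) * σ (l : F))⁻¹ * x.b := by
  have h1 : (l : F) ≠ 0 := l.ne_zero
  have h2 := sne (σ := σ) l
  simp only [act, ci_val, map_inv₀, sig]
  field_simp

/-- no automorphism of the unipotent group inverts the torus, `q ≥ 7` -/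
theorem inv_aux_seven (h7 : 7 ≤ q) (ψ : HG σ ≃* HG σ)
    (h : ∀ (l : Fˣ) (x : HG σ), ψ (act l x) = act (ci σ l) (ψ x)) : False := by
  obtain ⟨c, hc⟩ := C.ex_not_fixed
  have hb : (c - σ c) + σ (c - σ c) = 0 * σ 0 := by
    rw [map_sub, sig, zero_mul]; ring
  set z0 : HG σ := ⟨0, c - σ c, hb⟩ with hz0
  have hb0 : c - σ c ≠ 0 := sub_ne_zero.2 (Ne.symm hc)
  obtain ⟨l, hl, -⟩ := C.gen
  set ν : F := (l : F) * σ (l : F) with hν
  have hl0 : (l : F) ≠ 0 := l.ne_zero
  have hs0 := sne (σ := σ) l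
  have hν0 : ν ≠ 0 := mul_ne_zero hl0 hs0
  have hνσ : σ ν = ν := by rw [hν, map_mul, sig, mul_comm]
  have hνl : ν = ((l ^ (q + 1) : Fˣ) : F) := by
    rw [hν, C.sig_units, ← Units.val_mul, ← pow_succ']
  have h5 : (q + 1) * (q - 1) = q ^ 2 - 1 := by
    obtain ⟨k, rfl⟩ : ∃ k, q = k + 1 := ⟨q - 1, by omega⟩
    have : (k + 1) ^ 2 = (k + 2) * k + 1 := by ring
    rw [this]
    simp
  have hνm : ∀ m : ℕ, ν ^ m = 1 → q - 1 ∣ m := by
    intro m hm
    rw [hνl, ← Units.val_pow_eq_pow_val, Units.val_eq_one, ← pow_mul] at hm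
    have h1 := hl _ hm
    rw [← h5] at h1
    exact Nat.dvd_of_mul_dvd_mul_left (by omega) h1
  have hν1 : 1 + ν ≠ 0 := by
    intro h1
    have h2 := Nat.le_of_dvd (by norm_num) (hνm 2 (by linear_combination (ν - 1) * h1))
    omega
  obtain ⟨v, hv⟩ := C.ex_norm_units (c := 1 + ν) (by rw [map_add, map_one, hνσ]) hν1
  have h1 : act v z0 = z0 * act l z0 := by
    ext
    · simp [act, z0]
    · simp only [act, z0, mul_b, zero_mul, add_zero, hv, ← hν]
      ring
  have h2 := congrArg ψ h1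
  rw [map_mul, h, h] at h2
  have ha : (ψ z0).a = 0 := C.map_zero_a ψ rfl
  have h3 := congrArg HG.b h2
  rw [mul_b, C.act_ci, C.act_ci, ha, zero_mul, add_zero, hv, ← hν] at h3
  have hB : (ψ z0).b ≠ 0 := by
    apply b_ne_zero
    intro h6
    rw [map_eq_one_iff ψ ψ.injective] at h6
    have := congrArg HG.b h6
    exact hb0 this
  have h4 : (1 + ν)⁻¹ = 1 + ν⁻¹ := by
    apply mul_right_cancel₀ hB
    rw [h3]
    ring
  have h6 : ν ^ 2 + ν + 1 = 0 := by
    field_simp at h4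
    linear_combination -h4
  have h8 := Nat.le_of_dvd (by norm_num) (hνm 3 (by linear_combination (ν - 1) * h6))
  omega

/-- no automorphism of the unipotent group inverts the torus, `q = 4` -/
theorem inv_aux_four (h4 : q = 4) (ψ : HG σ ≃* HG σ)
    (h : ∀ (l : Fˣ) (x : HG σ), ψ (act l x) = act (ci σ l) (ψ x)) : False := by
  subst h4
  have hF := C.hF
  have h2 : CharP F 2 := by
    have hp := CharP.exists F
    obtain ⟨p, hp⟩ := hp
    obtain ⟨n, hpp, hn⟩ := FiniteField.card F p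
    have h3 : p ∣ 4 ^ 2 := by
      rw [← hF, hn]
      exact dvd_pow_self p n.pos.ne'
    have h4 : p ∣ 2 := by
      have h5 : p ∣ 2 ^ 4 := h3
      exact hpp.dvd_of_dvd_pow h5
    rwa [(Nat.prime_dvd_prime_iff_eq hpp Nat.prime_two).1 h4] at hp
  obtain ⟨x1, hx1⟩ := exists_a (σ := σ) C.hF C.hs 1
  have h15 : ∀ l : Fˣ, l ^ 15 = 1 := fun l => C.pow_q l
  have hA : (ψ x1).a ≠ 0 := by
    intro h3
    have h4 := C.map_zero_a ψ.symm h3
    rw [MulEquiv.symm_apply_apply, hx1] at h4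
    exact one_ne_zero h4
  have key : ∀ (m : Fˣ) (x : HG σ), x.a = m → (ψ x).a = ((m ^ 11 : Fˣ) : F) * (ψ x1).a := by
    intro m x hx
    have h3 : (act (m ^ 7) x1 : HG σ).a = m := by
      simp only [act, hx1, mul_one]
      rw [div_eq_iff (sne _), C.sig_units, ← Units.val_pow_eq_pow_val, ← Units.val_mul, Units.val_inj, ← pow_mul,
        ← pow_mul, ← pow_succ', show 7 * 4 + 1 = 7 * 2 + 15 by norm_num, pow_add, h15, mul_one]
    rw [C.map_a_congr ψ (hx.trans h3.symm), h]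
    simp only [act]
    congr 1
    have h4 : ci σ (m ^ 7) = m ^ 2 := by
      apply Units.ext
      rw [ci_val, C.sig_units, ← Units.val_inv_eq_inv_val, Units.val_inj, ← pow_mul, inv_eq_iff_mul_eq_one,
        ← pow_add, h15 m |> fun h5 => show m ^ (7 * 4 + 2) = 1 by
          rw [show 7 * 4 + 2 = 15 * 2 by norm_num, pow_mul, h5, one_pow]]
    rw [h4, div_eq_iff (sne _), C.sig_units, ← Units.val_pow_eq_pow_val, ← Units.val_mul, Units.val_inj, ← pow_mul,
      ← pow_mul, ← pow_add, show 11 + 2 * 4 = 2 * 2 + 15 by norm_num, pow_add, h15, mul_one]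
  obtain ⟨l, hl, -⟩ := C.gen
  have hl3 : ∀ m : ℕ, (l : F) ^ m = 1 → 15 ∣ m := by
    intro m hm
    rw [← Units.val_pow_eq_pow_val, ← Units.val_one, Units.val_inj] at hm
    exact hl m hm
  obtain ⟨x, hx⟩ := exists_a (σ := σ) C.hF C.hs (l : F)
  have hl1 : (l : F) + 1 ≠ 0 := by
    intro h3
    have h4 : (l : F) ^ 1 = 1 := by rw [pow_one]; exact CharTwo.add_eq_zero.1 h3
    have := hl3 _ h4
    omega
  have e1 := key l x hx
  have e2 := key (Units.mk0 _ hl1) (x * x1) (by rw [mul_a, hx, hx1, Units.val_mk0])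
  rw [map_mul, mul_a, e1] at e2
  have e3 : (l : F) ^ 11 + 1 = ((l : F) + 1) ^ 11 := by
    apply mul_right_cancel₀ hA
    rw [Units.val_pow_eq_pow_val, Units.val_pow_eq_pow_val, Units.val_mk0] at e2
    linear_combination e2
  have e4 : ((l : F) ^ 11 + 1) * ((l : F) + 1) ^ 4 = 1 := by
    rw [e3, ← pow_add]
    have := h15 (Units.mk0 _ hl1)
    have h6 := congrArg (fun u : Fˣ => (u : F)) this
    simpa using h6
  have e5 : ((l : F) + 1) ^ 4 = (l : F) ^ 4 + 1 := by
    have h6 : ∀ y : F, (y + 1) ^ 2 = y ^ 2 + 1 := by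
      intro y
      have h8 : (2 : F) = 0 := CharTwo.two_eq_zero
      linear_combination y * h8
    rw [show (4 : ℕ) = 2 * 2 by norm_num, pow_mul, h6, h6, ← pow_mul]
  have e6 : (l : F) ^ 15 = 1 := by
    rw [← Units.val_pow_eq_pow_val, h15, Units.val_one]
  rw [e5] at e4
  have e7 : (l : F) ^ 11 + (l : F) ^ 4 + 1 = 0 := by
    linear_combination e4 - e6
  have e8 : (l : F) ^ 12 = 1 := by
    have hl0 : (l : F) ≠ 0 := l.ne_zero
    have h8 : (2 : F) = 0 := CharTwo.two_eq_zero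
    -- `l ^ 8 + l ^ 4 + 1 = 0`
    have e9 : (l : F) ^ 8 + (l : F) ^ 4 + 1 = 0 := by
      linear_combination (l : F) ^ 4 * e7 - e6
    linear_combination ((l : F) ^ 4 - 1) * e9
  have := hl3 _ e8
  omega

theorem inv_aux (h4 : q = 4 ∨ 7 ≤ q) (ψ : HG σ ≃* HG σ)
    (h : ∀ (l : Fˣ) (x : HG σ), ψ (act l x) = act (ci σ l) (ψ x)) : False := by
  rcases h4 with h4 | h4
  · exact C.inv_aux_four h4 ψ h
  · exact C.inv_aux_seven h4 ψ h

end Ctx

end Cfsg.Agent.H987.R1
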