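import Cfsg.Agent.H987.R1.HypC

/-!
# The rank one data of `PSU(3,q)`: the fields `p2`, `inv`, and the group `Z` (helper987, S5745 OwnR1)
-/

set_option autoImplicit false
set_option linter.unusedSectionVars false

namespace Cfsg.Agent.H987.R1

open Matrix Subgroup
open Cfsg.Agent Cfsg.Agent.UThreeGen.MatGroup
open Cfsg.Agent.HKS.EndU (tor tmat tor_val tor_mem act tor_emb ci ci_val wel_tor exists_tor tor_mem_center sne
  eq_of_emb_mul comm_of_a)
open Cfsg.Agent.H212.U3.Model (exists_a exists_equiv card_HG card_SUG card_borel index_borel card_range emb_mem)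
open Cfsg.Agent.H284 (cj mem_cj conj_mem_cj)

namespace Ctx

variable {F : Type*} [Field F] [Fintype F] {q : ℕ} {σ : F →+* F} [hσ : Fact (∀ x, σ (σ x) = x)] {T : Type*}
  [Group T] {π : SUG σ →* T} (C : Ctx q σ π)

variable (p : ℕ) [Fact p.Prime] [CharP F p]

/-- the unipotent group -/
noncomputable def eU : HG σ ≃* (C.dat p).U :=
  MulEquiv.ofBijective
    ((π.comp (emb σ)).codRestrict (C.dat p).U fun x => Subgroup.mem_map_of_mem π ⟨x, rfl⟩)
    ⟨fun x y h => C.pi_emb_inj (congrArg Subtype.val h), by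
      rintro ⟨_, _, ⟨x, rfl⟩, rfl⟩
      exact ⟨x, rfl⟩⟩

theorem eU_val (x : HG σ) : ((C.eU p x : (C.dat p).U) : T) = π (emb σ x) := rfl

theorem eU_symm (u : (C.dat p).U) : π (emb σ ((C.eU p).symm u)) = (u : T) := by
  rw [← C.eU_val p, MulEquiv.apply_symm_apply]

theorem p2 (h2 : p = 2) (φ : MulAut (C.dat p).U) (h : ∀ t ∈ (C.dat p).T0, ∀ u v : (C.dat p).U,
    (v : T) = t * u * t⁻¹ → ((φ v : (C.dat p).U) : T) = t * (φ u : (C.dat p).U) * t⁻¹) (m : ℕ)
    (hm : φ ^ 2 ^ m = 1) : φ = 1 := by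
  subst h2
  have h1 : MulAut.congr (C.eU 2).symm φ = 1 := by
    apply C.p2_aux (m := m)
    · intro l x
      have h3 := h (π (tor σ l)) ((C.mem_T0 2).2 ⟨l, rfl⟩) (C.eU 2 x) (C.eU 2 (act l x)) (C.conj_act l x).symm
      apply C.pi_emb_inj
      rw [← C.conj_act]
      show π (emb σ ((C.eU 2).symm (φ ((C.eU 2).symm.symm (act l x))))) =
        π (tor σ l) * π (emb σ ((C.eU 2).symm (φ ((C.eU 2).symm.symm x)))) * (π (tor σ l))⁻¹
      rw [C.eU_symm, C.eU_symm]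
      exact h3
    · rw [← map_pow, hm, map_one]
  rwa [map_eq_one_iff _ (MulAut.congr (C.eU 2).symm).injective] at h1

theorem norm_conj {g b : T} : b ∈ cj g (C.dat p).B ↔ ∀ n, n ∈ cj g (C.dat p).U ↔ b * n * b⁻¹ ∈ cj g (C.dat p).U := by
  rw [mem_cj, ← (C.dat p).nU, Subgroup.mem_normalizer_iff]
  constructor
  · intro h n
    rw [mem_cj, mem_cj, h]
    have : g⁻¹ * b * g * (g⁻¹ * n * g) * (g⁻¹ * b * g)⁻¹ = g⁻¹ * (b * n * b⁻¹) * g := by group
    rw [this]
  · intro h n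
    have h1 := h (g * n * g⁻¹)
    rw [mem_cj, mem_cj] at h1
    have e1 : g⁻¹ * (g * n * g⁻¹) * g = n := by group
    have e2 : g⁻¹ * (b * (g * n * g⁻¹) * b⁻¹) * g = g⁻¹ * b * g * n * (g⁻¹ * b * g)⁻¹ := by group
    rw [e1, e2] at h1
    exact h1

theorem inv (h4 : q = 4 ∨ 7 ≤ q) (φ : MulAut T) (h : ∀ t ∈ (C.dat p).T0, φ t = t) (b : T)
    (hb : b ∈ (C.dat p).B) : φ b ∈ (C.dat p).B := by
  have hfT : Finite T := Finite.of_surjective π C.sur
  -- the Sylow subgroup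
  let P : Sylow p T := { (C.dat p).U with
    isPGroup' := (C.dat p).pU
    is_maximal' := fun {S} hS hle => (C.dat p).mU S hle hS }
  obtain ⟨g, hg⟩ := MulAction.exists_smul_eq T P (φ • P)
  have hU : (C.dat p).U.map φ.toMonoidHom = cj g (C.dat p).U := by
    have h1 := congrArg (fun Q : Sylow p T => (Q : Subgroup T)) hg
    exact h1.symm
  have hUm : ∀ x, φ x ∈ cj g (C.dat p).U ↔ x ∈ (C.dat p).U := by
    intro x
    rw [← hU]
    constructor
    · rintro ⟨y, hy, e⟩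
      have : y = x := φ.injective e
      rwa [this] at hy
    · exact fun hx => ⟨x, hx, rfl⟩
  have hBm : ∀ x, φ x ∈ cj g (C.dat p).B ↔ x ∈ (C.dat p).B := by
    intro x
    rw [C.norm_conj p, ← (C.dat p).nU, Subgroup.mem_normalizer_iff]
    constructor
    · intro h1 n
      have h2 := h1 (φ n)
      rw [← map_inv, ← map_mul, ← map_mul, hUm, hUm] at h2
      exact h2
    · intro h1 n
      obtain ⟨n, rfl⟩ := φ.surjective n
      rw [← map_inv, ← map_mul, ← map_mul, hUm, hUm]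
      exact h1 n
  by_cases hgB : g ∈ (C.dat p).B
  · have h1 := (hBm b).2 hb
    rw [mem_cj] at h1
    have h2 := mul_mem (mul_mem hgB h1) (inv_mem hgB)
    have h3 : g * (g⁻¹ * φ b * g) * g⁻¹ = φ b := by group
    rwa [h3] at h2
  · exfalso
    obtain ⟨c, hc, rfl⟩ := C.two_fix p hgB (by
      intro t ht
      have h1 : φ t ∈ cj g (C.dat p).B := (hBm t).2 ht.1
      rwa [h t ht] at h1)
    have hcU : cj ((C.dat p).w * c) (C.dat p).U = cj (C.dat p).w (C.dat p).U := by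
      ext x
      rw [mem_cj, mem_cj]
      constructor
      · intro h1
        have h2 := (C.dat p).conj_U hc h1
        have h3 : c * (((C.dat p).w * c)⁻¹ * x * ((C.dat p).w * c)) * c⁻¹ = (C.dat p).w⁻¹ * x * (C.dat p).w := by group
        rwa [h3] at h2
      · intro h1
        have h2 := (C.dat p).conj_U (inv_mem hc) h1
        have h3 : c⁻¹ * ((C.dat p).w⁻¹ * x * (C.dat p).w) * c⁻¹⁻¹ = ((C.dat p).w * c)⁻¹ * x * ((C.dat p).w * c) := by
          group
        rwa [h3] at h2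
    rw [hcU] at hU hUm
    set θ : MulAut T := (MulAut.conj (C.dat p).w)⁻¹ * φ with hθ
    have hθv : ∀ x, θ x = (C.dat p).w⁻¹ * φ x * (C.dat p).w := by
      intro x
      rw [hθ, MulAut.mul_apply, MulAut.conj_inv_apply]
    have hθU : (C.dat p).U.map θ.toMonoidHom = (C.dat p).U := by
      ext x
      constructor
      · rintro ⟨y, hy, rfl⟩
        show θ y ∈ _
        rw [hθv, ← mem_cj]
        exact (hUm y).2 hy
      · intro hx
        obtain ⟨y, rfl⟩ := θ.surjective x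
        rw [hθv, ← mem_cj, hUm] at hx
        exact ⟨y, hx, rfl⟩
    let ρ : (C.dat p).U ≃* (C.dat p).U := (θ.subgroupMap (C.dat p).U).trans (MulEquiv.subgroupCongr hθU)
    have hρ : ∀ u : (C.dat p).U, ((ρ u : (C.dat p).U) : T) = (C.dat p).w⁻¹ * φ u * (C.dat p).w := fun u => hθv u
    apply C.inv_aux h4 (((C.eU p).trans ρ).trans (C.eU p).symm)
    intro l x
    apply C.pi_emb_inj
    rw [← C.conj_act]
    show π (emb σ ((C.eU p).symm (ρ (C.eU p (act l x))))) =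
      π (tor σ (ci σ l)) * π (emb σ ((C.eU p).symm (ρ (C.eU p x)))) * (π (tor σ (ci σ l)))⁻¹
    rw [C.eU_symm, C.eU_symm, hρ, hρ, C.eU_val, C.eU_val, ← C.conj_act, map_mul φ, map_mul φ, map_inv φ,
      h _ ((C.mem_T0 p).2 ⟨l, rfl⟩)]
    have h8 : (C.dat p).w⁻¹ * π (tor σ l) * (C.dat p).w = π (tor σ (ci σ l)) := by
      show (π (wel σ))⁻¹ * π (tor σ l) * π (wel σ) = _
      rw [← map_inv, ← map_mul, ← map_mul, wel_inv, wel_tor]
    rw [← h8]
    group

/-- the group of homologies -/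
def Z : Subgroup T where
  carrier := {t | t ∈ (C.dat p).T0 ∧ t ^ (q + 1) = 1}
  mul_mem' := by
    rintro a b ⟨ha, ha'⟩ ⟨hb, hb'⟩
    refine ⟨mul_mem ha hb, ?_⟩
    have : Commute a b := by
      obtain ⟨l, rfl⟩ := (C.mem_T0 p).1 ha
      obtain ⟨m, rfl⟩ := (C.mem_T0 p).1 hb
      show π (tor σ l) * π (tor σ m) = π (tor σ m) * π (tor σ l)
      rw [← map_mul, ← map_mul, ← map_mul, ← map_mul, mul_comm]
    rw [this.mul_pow, ha', hb', one_mul]
  one_mem' := ⟨one_mem _, one_pow _⟩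
  inv_mem' := by
    rintro a ⟨ha, ha'⟩
    exact ⟨inv_mem ha, by rw [inv_pow, ha', inv_one]⟩

theorem tor_inj {l m : Fˣ} (h : tor σ l = tor σ m) : l = m := by
  apply Units.ext
  have h8 := congrArg (fun g : SUG σ => g.1.1 0 0) h
  simpa [tor_val, tmat] using h8

theorem norm_of_Z {l : Fˣ} (h : π (tor σ l) ∈ C.Z p) : (l : F) * σ (l : F) = 1 := by
  have h1 := h.2
  rw [← map_pow, ← map_pow, C.ker] at h1
  obtain ⟨c, hc, hc2⟩ := C.cen_tor h1
  have h2 : l ^ (q + 1) = c := Ctx.tor_inj hc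
  have h3 : (c : F) = (l : F) * σ (l : F) := by
    rw [← h2, C.sig_units, ← Units.val_mul, ← pow_succ']
  have h4 : σ (c : F) = c := by rw [h3, map_mul, sig, mul_comm]
  rw [h4, sq] at hc2
  rw [← h3]
  exact mul_left_cancel₀ (Units.ne_zero c) (hc2.trans (mul_one _).symm)

theorem Z_ne_bot : C.Z p ≠ ⊥ := by
  intro h
  have h4 := C.q4
  obtain ⟨l0, hl0, -⟩ := C.gen
  have h5 : (q - 1) * (q + 1) = q ^ 2 - 1 := by
    obtain ⟨k, rfl⟩ : ∃ k, q = k + 1 := ⟨q - 1, by omega⟩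
    have : (k + 1) ^ 2 = k * (k + 2) + 1 := by ring
    rw [this]
    simp
  have h1 : π (tor σ (l0 ^ (q - 1))) ∈ C.Z p := by
    refine ⟨(C.mem_T0 p).2 ⟨_, rfl⟩, ?_⟩
    rw [← map_pow, ← map_pow, ← pow_mul, h5, C.pow_q, map_one, map_one]
  rw [h, Subgroup.mem_bot, C.ker] at h1
  obtain ⟨c, hc, hc2⟩ := C.cen_tor h1
  have h2 := Ctx.tor_inj hc
  have h3 : (c : F) * σ (c : F) = 1 := by
    rw [C.sig_units, ← Units.val_mul, ← pow_succ', ← h2, ← pow_mul, h5, C.pow_q, Units.val_one]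
  rw [← hc2] at h3
  have h6 : c ^ 3 = 1 := by
    apply Units.ext
    rw [Units.val_pow_eq_pow_val, Units.val_one, ← h3]
    ring
  rw [← h2, ← pow_mul] at h6
  have h7 := hl0 _ h6
  rw [← h5] at h7
  have h8 := Nat.le_of_dvd (by norm_num) (Nat.dvd_of_mul_dvd_mul_left (by omega) h7)
  omega

theorem Z_ne_top : C.Z p ≠ ⊤ := by
  intro h
  apply (C.dat p).wB
  have h1 : (C.dat p).w ∈ C.Z p := by rw [h]; trivial
  exact h1.1.1

theorem Z_T0 (φ : MulAut T) (hφ : ∀ x ∈ (C.dat p).T0, φ x ∈ (C.dat p).T0) (z : T) (hz : z ∈ C.Z p) :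
    φ z ∈ C.Z p := ⟨hφ z hz.1, by rw [← map_pow, hz.2, map_one]⟩

/-- overgroups of `T0` which centralise `Z` -/
theorem Z_inv {K : Subgroup T} (hK : (C.dat p).T0 ≤ K) (hZ : ∀ z ∈ C.Z p, ∀ k ∈ K, z * k = k * z)
    (φ : MulAut T) (hφ : ∀ x ∈ K, φ x ∈ K) (z : T) (hz : z ∈ C.Z p) : φ z ∈ C.Z p := by
  have hfT : Finite T := Finite.of_surjective π C.sur
  refine ⟨?_, by rw [← map_pow, hz.2, map_one]⟩
  have hsur : ∀ x ∈ K, ∃ y ∈ K, φ y = x := by
    have h1 : K.map φ.toMonoidHom = K := by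
      apply Subgroup.eq_of_le_of_card_ge
      · rintro _ ⟨x, hx, rfl⟩
        exact hφ x hx
      · exact (Nat.card_congr (K.equivMapOfInjective φ.toMonoidHom φ.injective).toEquiv).le
    intro x hx
    rw [← h1] at hx
    obtain ⟨y, hy, e⟩ := hx
    exact ⟨y, hy, e⟩
  apply C.cent p
  intro t ht
  obtain ⟨y, hy, rfl⟩ := hsur t (hK ht)
  rw [← map_mul, ← map_mul, hZ z hz y hy]

end Ctx

end Cfsg.Agent.H987.R1
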