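import Cfsg.Agent.H987.R1.HypD
import Cfsg.Agent.H987.R1.GeoC

/-!
# The rank one data of `PSU(3,q)`: overgroups of the torus (helper987, S5745 OwnR1)
-/

set_option autoImplicit false
set_option linter.unusedSectionVars false

namespace Cfsg.Agent.H987.R1

open Matrix Subgroup Module
open Cfsg Cfsg.Geo
open Cfsg.Agent Cfsg.Agent.UThreeGen.MatGroup
open Cfsg.Agent.HKS.EndU (tor tmat tor_val tor_mem act tor_emb ci ci_val wel_tor exists_tor tor_mem_center sne
  eq_of_emb_mul comm_of_a)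
open Cfsg.Agent.LieRecognition.PSUThreeSylow (conjT Jm)
open Cfsg.Agent.H284 (cj mem_cj conj_mem_cj)

/-- the change of basis -/
theorem exists_change {F : Type*} [Field F] [Fintype F] {σ : F →+* F} [hσ : Fact (∀ x, σ (σ x) = x)] {q : ℕ}
    (hq : 1 < q) (hs : ∀ x, σ x = x ^ q) (hF : Fintype.card F = q ^ 2) :
    ∃ S S' : Matrix (Fin 3) (Fin 3) F, S * S' = 1 ∧ Sᵀ * S.map σ = -Gm F := by
  by_cases h2 : (2 : F) = 0
  · have : CharP F 2 := CharTwo.of_one_ne_zero_of_two_eq_zero one_ne_zero h2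
    obtain ⟨c, hc⟩ := LieClassical.HermBasic.exists_not_fixed (F := F) (q := q) hF
    rw [← hs] at hc
    obtain ⟨T, T', h1, h3⟩ := LieRecognition.PSUThreeSylow.exists_T (σ := σ) hc
    refine ⟨T, T', h1, h3.trans ?_⟩
    ext i j
    fin_cases i <;> fin_cases j <;> simp [Jm, Gm, CharTwo.neg_eq]
  · obtain ⟨v, hv⟩ := UThreeGen.Recog.exists_norm (σ := σ) hq hs (by rw [Nat.card_eq_fintype_card, hF]) (c := -1)
      (by rw [map_neg, map_one])
    exact UThreeGen.Recog.exists_T (σ := σ) h2 hv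

section change

variable {F : Type*} [Field F] {S S' : Matrix (Fin 3) (Fin 3) F} (h : S * S' = 1) (h' : S' * S = 1)

/-- the basis -/
noncomputable def bas : Basis (Fin 3) F (Fin 3 → F) :=
  (Pi.basisFun F (Fin 3)).map (Matrix.toLin'OfInv h' h)

theorem bas_apply (i : Fin 3) : bas h h' i = S *ᵥ Pi.single i 1 := by
  simp only [bas, Basis.map_apply, Pi.basisFun_apply]
  rfl

/-- the invertible matrix -/
def chg : GL (Fin 3) F := ⟨S, S', h, h'⟩

/-- the embedding of `SUG σ` -/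
noncomputable def th (σ : F →+* F) : SUG σ →* GL (Fin 3) F :=
  (MulAut.conj (chg h h')).toMonoidHom.comp
    ((Matrix.SpecialLinearGroup.toGL : SpecialLinearGroup (Fin 3) F →* GL (Fin 3) F).comp (SUG σ).subtype)

theorem th_val {σ : F →+* F} (g : SUG σ) :
    ((th h h' σ g : GL (Fin 3) F) : Matrix (Fin 3) (Fin 3) F) = S * g.1.1 * S' := rfl

theorem th_inj {σ : F →+* F} {g k : SUG σ} (e : th h h' σ g = th h h' σ k) : g = k := by
  have h1 : S * g.1.1 * S' = S * k.1.1 * S' := congrArg (fun x : GL (Fin 3) F => (x : Matrix (Fin 3) (Fin 3) F)) e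
  apply Subtype.ext
  apply Subtype.ext
  calc g.1.1 = (S' * S) * g.1.1 * (S' * S) := by rw [h', Matrix.one_mul, Matrix.mul_one]
    _ = S' * (S * g.1.1 * S') * S := by simp only [Matrix.mul_assoc]
    _ = S' * (S * k.1.1 * S') * S := by rw [h1]
    _ = (S' * S) * k.1.1 * (S' * S) := by simp only [Matrix.mul_assoc]
    _ = k.1.1 := by rw [h', Matrix.one_mul, Matrix.mul_one]

theorem th_mulVec {σ : F →+* F} (g : SUG σ) (v : Fin 3 → F) :
    ((th h h' σ g : GL (Fin 3) F) : Matrix (Fin 3) (Fin 3) F) *ᵥ (S *ᵥ v) = S *ᵥ (g.1.1 *ᵥ v) := by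
  rw [th_val, mulVec_mulVec, mulVec_mulVec, Matrix.mul_assoc, h', Matrix.mul_one]

include h' in
theorem S_inj {v w : Fin 3 → F} (e : S *ᵥ v = S *ᵥ w) : v = w := by
  have h1 := congrArg (fun u => S' *ᵥ u) e
  simpa only [mulVec_mulVec, h', one_mulVec] using h1

/-- a fixed line gives a column -/
theorem col_of_fix {σ : F →+* F} {g : SUG σ} {i : Fin 3} (hf : Fix (th h h' σ g) (bas h h' i)) (j : Fin 3)
    (hj : j ≠ i) : g.1.1 j i = 0 := by
  obtain ⟨c, hc⟩ := hf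
  rw [bas_apply, th_mulVec, ← mulVec_smul] at hc
  have h1 := congrFun (S_inj h' hc) j
  rw [mulVec_single_one, Pi.smul_apply, Pi.single_eq_of_ne hj, smul_zero] at h1
  exact h1

theorem herm_bas {σ : F →+* F} {q : ℕ} (hs : ∀ x, σ x = x ^ q) (hS : Sᵀ * S.map σ = -Gm F) (i j : Fin 3) :
    hermForm 3 F q (bas h h' i) (bas h h' j) = -Gm F i j := by
  have h1 := congrFun (congrFun hS i) j
  rw [Matrix.neg_apply] at h1
  rw [← h1, Matrix.mul_apply, hermForm]
  refine Finset.sum_congr rfl fun k _ => ?_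
  rw [bas_apply, bas_apply, mulVec_single_one, mulVec_single_one, Matrix.map_apply, hs, Matrix.transpose_apply]
  rfl

theorem mem_range_iff {σ : F →+* F} [Fact (∀ x, σ (σ x) = x)] {q : ℕ} (hs : ∀ x, σ x = x ^ q)
    (hS : Sᵀ * S.map σ = -Gm F) (x : GL (Fin 3) F) :
    x ∈ GU 3 F q ⊓ specialLinear (Fin 3) F ↔ ∃ g : SUG σ, th h h' σ g = x := by
  have hmap := UThreeGen.Recog.SU_eq_map hs h hS
  constructor
  · rintro ⟨hx, hd⟩
    have hd' : (x : Matrix (Fin 3) (Fin 3) F).det = 1 := by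
      have h1 : Matrix.GeneralLinearGroup.det x = 1 := hd
      have h2 := congrArg (fun u : Fˣ => (u : F)) h1
      simpa using h2
    have h1 : (⟨x, hd'⟩ : SpecialLinearGroup (Fin 3) F) ∈ Cfsg.SU 3 F q := hx
    rw [← hmap] at h1
    obtain ⟨k, hk, e⟩ := h1
    refine ⟨⟨k, hk⟩, ?_⟩
    apply Units.ext
    exact congrArg Subtype.val e
  · rintro ⟨g, rfl⟩
    have h1 : conjT h g.1 ∈ Cfsg.SU 3 F q := by
      rw [← hmap]
      exact ⟨g.1, g.2, rfl⟩
    refine ⟨h1, ?_⟩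
    show Matrix.GeneralLinearGroup.det (th h h' σ g) = 1
    apply Units.ext
    show (S * g.1.1 * S').det = 1
    exact (conjT h g.1).2

end change

namespace Ctx

variable {F : Type*} [Field F] [Fintype F] {q : ℕ} {σ : F →+* F} [hσ : Fact (∀ x, σ (σ x) = x)] {T : Type*}
  [Group T] {π : SUG σ →* T} (C : Ctx q σ π)

include C

theorem tor_single (l : Fˣ) (i : Fin 3) :
    (tor σ l).1.1 *ᵥ Pi.single i (1 : F) = ((tt q l i : Fˣ) : F) • Pi.single i (1 : F) := by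
  have h4 := C.q4
  have h1 : σ (l : F) / (l : F) = ((l ^ (q - 1) : Fˣ) : F) := by
    rw [div_eq_iff (Units.ne_zero l), C.sig_units, ← Units.val_mul, ← pow_succ]
    congr 2
    omega
  have h2 : (σ (l : F))⁻¹ = (((l ^ q)⁻¹ : Fˣ) : F) := by
    rw [C.sig_units, Units.val_inv_eq_inv_val]
  rw [mulVec_single_one, tor_val]
  funext j
  fin_cases i
  · fin_cases j <;> simp [tmat, tt]
  · fin_cases j
    · simp [tmat, tt]
    · show σ (l : F) / (l : F) = ((l ^ (q - 1) : Fˣ) : F) • (Pi.single (1 : Fin 3) (1 : F) : Fin 3 → F) 1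
      rw [Pi.single_eq_same, h1, smul_eq_mul, mul_one]
    · simp [tmat, tt]
  · fin_cases j
    · simp [tmat, tt]
    · simp [tmat, tt]
    · show (σ (l : F))⁻¹ = (((l ^ q)⁻¹ : Fˣ) : F) • (Pi.single (2 : Fin 3) (1 : F) : Fin 3 → F) 2
      rw [Pi.single_eq_same, h2, smul_eq_mul, mul_one]

theorem reg {S S' : Matrix (Fin 3) (Fin 3) F} (h : S * S' = 1) (h' : S' * S = 1) (hq : q = 4 ∨ 7 ≤ q) {l : Fˣ}
    (hl : ∀ k : ℕ, l ^ k = 1 → q ^ 2 - 1 ∣ k) : Reg q l (bas h h') (th h h' σ (tor σ l)) where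
  hq := hq
  ord := hl
  eig := by
    intro i
    rw [bas_apply, th_mulVec, C.tor_single, mulVec_smul]

/-- elements which fix the middle line commute with the homologies -/
theorem comm_mid {g : SUG σ} (h01 : g.1.1 0 1 = 0) (h21 : g.1.1 2 1 = 0) {l : Fˣ} (hl : (l : F) * σ (l : F) = 1) :
    tor σ l * g = g * tor σ l := by
  have e11 := entry_of_mem_SUG g.2 1 1
  have j11 : Gm F 1 1 = -1 := by simp [Gm]
  simp only [h01, h21, j11, zero_mul, add_zero, zero_sub, neg_inj] at e11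
  have h11 : g.1.1 1 1 ≠ 0 := by
    intro h0
    rw [h0, zero_mul] at e11
    exact zero_ne_one e11
  have hs11 : σ (g.1.1 1 1) ≠ 0 := (map_ne_zero σ).2 h11
  have e01 := entry_of_mem_SUG g.2 0 1
  have e21 := entry_of_mem_SUG g.2 2 1
  have j01 : Gm F 0 1 = 0 := by simp [Gm]
  have j21 : Gm F 2 1 = 0 := by simp [Gm]
  simp only [h01, h21, j01, map_zero, mul_zero, add_zero, zero_sub, neg_eq_zero, mul_eq_zero] at e01
  simp only [h01, h21, j21, map_zero, mul_zero, add_zero, zero_sub, neg_eq_zero, mul_eq_zero] at e21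
  have h10 : g.1.1 1 0 = 0 := e01.resolve_right hs11
  have h12 : g.1.1 1 2 = 0 := e21.resolve_right hs11
  have hl2 : (σ (l : F))⁻¹ = l := inv_eq_of_mul_eq_one_left hl
  apply Subtype.ext
  apply Subtype.ext
  rw [coe_mul_SUG, coe_mul_SUG, tor_val]
  ext i j
  rw [Matrix.mul_apply, Matrix.mul_apply, Fin.sum_univ_three, Fin.sum_univ_three]
  fin_cases i <;> fin_cases j <;> simp [tmat, h01, h21, h10, h12, hl2, mul_comm]

variable (p : ℕ) [Fact p.Prime] [CharP F p]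

/-- the overgroups of the torus -/
theorem overg {S S' : Matrix (Fin 3) (Fin 3) F} (h : S * S' = 1) (h' : S' * S = 1) (hS : Sᵀ * S.map σ = -Gm F)
    (hq : q = 4 ∨ 7 ≤ q) {l : Fˣ} (hl : ∀ k : ℕ, l ^ k = 1 → q ^ 2 - 1 ∣ k)
    (hres : ∀ H, IsMaximalIn (GU 3 F q ⊓ specialLinear (Fin 3) F) H → th h h' σ (tor σ l) ∈ H →
      ¬ InUnitaryResidualClass H)
    (K : Subgroup T) (hK : (C.dat p).T0 ≤ K) (hK' : K ≠ ⊤) :
    K ≤ (C.dat p).B ∨ K ≤ cj (C.dat p).w (C.dat p).B ∨ ∀ z ∈ C.Z p, ∀ k ∈ K, z * k = k * z := by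
  have hlt : (K.comap π).map (th h h' σ) < GU 3 F q ⊓ specialLinear (Fin 3) F := by
    refine lt_of_le_of_ne ?_ ?_
    · rintro _ ⟨g, -, rfl⟩
      exact (mem_range_iff h h' C.hs hS _).2 ⟨g, rfl⟩
    · intro e
      apply hK'
      rw [eq_top_iff]
      rintro x -
      obtain ⟨g, rfl⟩ := C.sur x
      have h1 : th h h' σ g ∈ GU 3 F q ⊓ specialLinear (Fin 3) F := (mem_range_iff h h' C.hs hS _).2 ⟨g, rfl⟩
      rw [← e] at h1
      obtain ⟨k, hk, e'⟩ := h1
      rw [← th_inj h h' e']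
      exact hk
  have hg : th h h' σ (tor σ l) ∈ (K.comap π).map (th h h' σ) :=
    ⟨tor σ l, hK ((C.mem_T0 p).2 ⟨l, rfl⟩), rfl⟩
  have hb := herm_bas h h' C.hs hS
  obtain ⟨i, hi⟩ := (C.reg h h' hq hl).fix_line_of_lt C.hF (by rw [hb]; simp [Gm]) (by rw [hb]; simp [Gm])
    (by rw [hb]; simp [Gm]) (by rw [hb]; simp [Gm]) hres hlt hg
  have hcol : ∀ g : SUG σ, π g ∈ K → ∀ j, j ≠ i → g.1.1 j i = 0 := by
    intro g hg j hj
    exact col_of_fix h h' (hi _ ⟨g, hg, rfl⟩) j hj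
  fin_cases i
  · left
    intro x hx
    obtain ⟨g, rfl⟩ := C.sur x
    exact Subgroup.mem_map_of_mem π ⟨hcol g hx 1 (by decide), hcol g hx 2 (by decide)⟩
  · right; right
    intro z hz k hk
    obtain ⟨m, rfl⟩ := (C.mem_T0 p).1 hz.1
    obtain ⟨g, rfl⟩ := C.sur k
    rw [← map_mul, ← map_mul, C.comm_mid (hcol g hk 0 (by decide)) (hcol g hk 2 (by decide)) (C.norm_of_Z p hz)]
  · right; left
    intro x hx
    obtain ⟨g, rfl⟩ := C.sur x
    show π g ∈ cj (π (wel σ)) ((borel σ).map π)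
    rw [mem_cj, ← map_inv, ← map_mul, ← map_mul]
    apply Subgroup.mem_map_of_mem π
    rw [wel_inv, mem_borel, coe_mul_SUG, coe_mul_SUG, wel_val]
    rw [(mul_Wm_apply _ 1).1, (Wm_mul_apply _ 2).2.1, neg_neg, (mul_Wm_apply _ 2).1, (Wm_mul_apply _ 2).2.2, neg_neg]
    exact ⟨hcol g hx 1 (by decide), hcol g hx 0 (by decide)⟩

/-- **the hypotheses** -/
theorem hyp {S S' : Matrix (Fin 3) (Fin 3) F} (h : S * S' = 1) (h' : S' * S = 1) (hS : Sᵀ * S.map σ = -Gm F)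
    (hq : q = 4 ∨ 7 ≤ q) {l : Fˣ} (hl : ∀ k : ℕ, l ^ k = 1 → q ^ 2 - 1 ∣ k)
    (hres : ∀ H, IsMaximalIn (GU 3 F q ⊓ specialLinear (Fin 3) F) H → th h h' σ (tor σ l) ∈ H →
      ¬ InUnitaryResidualClass H) : (C.dat p).Hyp where
  comm := C.comm p
  p2 := C.p2 p
  inv := fun _ φ hφ => C.inv p hq φ hφ
  ov := by
    refine (C.dat p).ov_of (C.Z p) (C.Z_ne_bot p) (C.Z_ne_top p) (C.Z_T0 p) fun K hK hK' => ?_
    rcases C.overg p h h' hS hq hl hres K hK hK' with h1 | h1 | h1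
    · exact Or.inl h1
    · exact Or.inr (Or.inl h1)
    · exact Or.inr (Or.inr fun φ hφ => C.Z_inv p hK h1 φ hφ)

end Ctx

end Cfsg.Agent.H987.R1
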