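import Mathlib

/-!
# A regular element of `SU(3,q)` in a basis of eigenvectors (helper987, S5745 OwnR1)

`Reg q l b g` : `g` has the eigenvalues `l, l ^ (q - 1), l ^ (- q)` on the basis `b`, `l` of order `q ^ 2 - 1`.
-/

set_option autoImplicit false

namespace Cfsg.Agent.H987.R1

open Matrix Module

variable {F : Type*} [Field F]

/-- the eigenvalues -/
def tt (q : ℕ) (l : Fˣ) : Fin 3 → Fˣ := ![l, l ^ (q - 1), (l ^ q)⁻¹]

/-- a regular element -/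
structure Reg (q : ℕ) (l : Fˣ) (b : Basis (Fin 3) F (Fin 3 → F)) (g : GL (Fin 3) F) : Prop where
  hq : q = 4 ∨ 7 ≤ q
  ord : ∀ k : ℕ, l ^ k = 1 → q ^ 2 - 1 ∣ k
  eig : ∀ i, (g : Matrix (Fin 3) (Fin 3) F) *ᵥ b i = ((tt q l i : Fˣ) : F) • b i

section arith

variable {q : ℕ} {l : Fˣ}

theorem dvd_of_zero_one (hq : 4 ≤ q) (hl : ∀ k : ℕ, l ^ k = 1 → q ^ 2 - 1 ∣ k) {m : ℕ}
    (h : tt q l 1 ^ m = tt q l 0 ^ m) : q ^ 2 - 1 ∣ 3 * m := by
  obtain ⟨r, rfl⟩ : ∃ r, q = r + 2 := ⟨q - 2, by omega⟩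
  have h1 : (l ^ (r + 1)) ^ m = l ^ m := h
  have h2 : l ^ (r * m) = 1 := by
    rw [← pow_mul, add_mul, one_mul, pow_add] at h1
    exact mul_eq_right.1 h1
  have h3 := hl _ h2
  have e : (r + 2) ^ 2 - 1 = r ^ 2 + 4 * r + 3 := by
    have : (r + 2) ^ 2 = r ^ 2 + 4 * r + 3 + 1 := by ring
    omega
  rw [e] at h3 ⊢
  have h4 : r ^ 2 + 4 * r + 3 ∣ (r * m) * (r + 4) + 3 * m := ⟨m, by ring⟩
  exact (Nat.dvd_add_right (h3.mul_right _)).1 h4

theorem dvd_of_one_two (hq : 4 ≤ q) (hl : ∀ k : ℕ, l ^ k = 1 → q ^ 2 - 1 ∣ k) {m : ℕ}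
    (h : tt q l 1 ^ m = tt q l 2 ^ m) : q ^ 2 - 1 ∣ 3 * m := by
  obtain ⟨r, rfl⟩ : ∃ r, q = r + 1 := ⟨q - 1, by omega⟩
  have h1 : (l ^ r) ^ m = ((l ^ (r + 1))⁻¹) ^ m := h
  have h2 : l ^ ((2 * r + 1) * m) = 1 := by
    have e : (2 * r + 1) * m = r * m + (r + 1) * m := by ring
    rw [e, pow_add, pow_mul, pow_mul, h1, ← mul_pow, inv_mul_cancel, one_pow]
  have h3 := hl _ h2
  have e : (r + 1) ^ 2 - 1 = r ^ 2 + 2 * r := by
    have : (r + 1) ^ 2 = r ^ 2 + 2 * r + 1 := by ring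
    omega
  rw [e] at h3 ⊢
  have h4 : r ^ 2 + 2 * r ∣ (r ^ 2 + 2 * r) * (4 * m) + 3 * m := by
    have : (r ^ 2 + 2 * r) * (4 * m) + 3 * m = (2 * r + 1) * m * (2 * r + 3) := by ring
    rw [this]
    exact h3.mul_right _
  exact (Nat.dvd_add_right (dvd_mul_right _ _)).1 h4

theorem dvd_of_zero_two (hq : 4 ≤ q) (hl : ∀ k : ℕ, l ^ k = 1 → q ^ 2 - 1 ∣ k) {m : ℕ}
    (h : tt q l 0 ^ m = tt q l 2 ^ m) : q - 1 ∣ m := by
  obtain ⟨r, rfl⟩ : ∃ r, q = r + 1 := ⟨q - 1, by omega⟩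
  have h1 : l ^ m = ((l ^ (r + 1))⁻¹) ^ m := h
  have h2 : l ^ ((r + 2) * m) = 1 := by
    have e : (r + 2) * m = m + (r + 1) * m := by ring
    rw [e, pow_add, pow_mul, h1, ← mul_pow, inv_mul_cancel, one_pow]
  have h3 := hl _ h2
  have e : (r + 1) ^ 2 - 1 = (r + 2) * r := by
    have : (r + 1) ^ 2 = (r + 2) * r + 1 := by ring
    omega
  rw [e] at h3
  exact Nat.dvd_of_mul_dvd_mul_left (by omega) h3

theorem not_dvd (hq : q = 4 ∨ 7 ≤ q) {m : ℕ} (h : m = 1 ∨ m = 2 ∨ m = 3 ∨ m = 6) : ¬ q ^ 2 - 1 ∣ 3 * m := by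
  intro h1
  rcases hq with rfl | hq
  · have h2 : 15 ∣ 3 * m := h1
    omega
  · have h2 := Nat.le_of_dvd (by omega) h1
    have : 49 ≤ q ^ 2 := by nlinarith
    omega

end arith

namespace Reg

variable {q : ℕ} {l : Fˣ} {b : Basis (Fin 3) F (Fin 3 → F)} {g : GL (Fin 3) F} (R : Reg q l b g)

include R

theorem four_le : 4 ≤ q := by rcases R.hq with h | h <;> omega

theorem eig_pow (m : ℕ) (i : Fin 3) :
    ((g ^ m : GL (Fin 3) F) : Matrix (Fin 3) (Fin 3) F) *ᵥ b i = ((tt q l i : Fˣ) : F) ^ m • b i := by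
  induction m with
  | zero => simp
  | succ m ih =>
    rw [pow_succ', Units.val_mul, ← mulVec_mulVec, ih, mulVec_smul, R.eig, smul_smul, pow_succ]

theorem repr_pow (m : ℕ) (w : Fin 3 → F) (i : Fin 3) :
    b.repr (((g ^ m : GL (Fin 3) F) : Matrix (Fin 3) (Fin 3) F) *ᵥ w) i =
      ((tt q l i : Fˣ) : F) ^ m * b.repr w i := by
  have h1 : ((g ^ m : GL (Fin 3) F) : Matrix (Fin 3) (Fin 3) F) *ᵥ w =
      ∑ j, b.repr w j • (((tt q l j : Fˣ) : F) ^ m • b j) := by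
    conv_lhs => rw [← b.sum_repr w]
    rw [← Matrix.mulVecLin_apply, map_sum]
    refine Finset.sum_congr rfl fun j _ => ?_
    rw [map_smul, Matrix.mulVecLin_apply, R.eig_pow]
  rw [h1, map_sum, Finsupp.finsetSum_apply, Finset.sum_eq_single i]
  · rw [map_smul, map_smul, Finsupp.smul_apply, Finsupp.smul_apply, b.repr_self, Finsupp.single_eq_same]
    simp [mul_comm]
  · intro j _ hj
    rw [map_smul, map_smul, Finsupp.smul_apply, Finsupp.smul_apply, b.repr_self, Finsupp.single_eq_of_ne hj.symm]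
    simp
  · intro h; exact absurd (Finset.mem_univ _) h

/-- coordinates of an eigenvector -/
theorem coord {m : ℕ} {w : Fin 3 → F} {c : F}
    (h : ((g ^ m : GL (Fin 3) F) : Matrix (Fin 3) (Fin 3) F) *ᵥ w = c • w) (i : Fin 3) :
    b.repr w i = 0 ∨ ((tt q l i : Fˣ) : F) ^ m = c := by
  have h1 := R.repr_pow m w i
  rw [h, map_smul, Finsupp.smul_apply, smul_eq_mul] at h1
  by_cases h2 : b.repr w i = 0
  · exact Or.inl h2
  · exact Or.inr (mul_right_cancel₀ h2 h1).symm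

omit R in
/-- a vector with one coordinate -/
theorem eq_smul {w : Fin 3 → F} {i : Fin 3} (h : ∀ j, j ≠ i → b.repr w j = 0) : w = b.repr w i • b i := by
  conv_lhs => rw [← b.sum_repr w]
  rw [Finset.sum_eq_single i]
  · intro j _ hj
    rw [h j hj, zero_smul]
  · intro h; exact absurd (Finset.mem_univ _) h

theorem ne_one {m : ℕ} (hm : ¬ q ^ 2 - 1 ∣ 3 * m) {i : Fin 3} (hi : i ≠ 1) :
    ((tt q l i : Fˣ) : F) ^ m ≠ ((tt q l 1 : Fˣ) : F) ^ m := by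
  intro h
  apply hm
  have h1 : tt q l 1 ^ m = tt q l i ^ m := by
    apply Units.ext
    rw [Units.val_pow_eq_pow_val, Units.val_pow_eq_pow_val, h]
  fin_cases i
  · exact dvd_of_zero_one R.four_le R.ord h1
  · exact absurd rfl hi
  · exact dvd_of_one_two R.four_le R.ord h1

theorem ne_zero_two {m : ℕ} (hm : ¬ q - 1 ∣ m) :
    ((tt q l 0 : Fˣ) : F) ^ m ≠ ((tt q l 2 : Fˣ) : F) ^ m := by
  intro h
  apply hm
  apply dvd_of_zero_two R.four_le R.ord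
  apply Units.ext
  rw [Units.val_pow_eq_pow_val, Units.val_pow_eq_pow_val, h]

/-- the powers `1` and `2` have distinct eigenvalues -/
theorem inj_pow {m : ℕ} (hm : m = 1 ∨ m = 2) {i j : Fin 3} (h : ((tt q l i : Fˣ) : F) ^ m = ((tt q l j : Fˣ) : F) ^ m) :
    i = j := by
  have h4 := R.four_le
  have h1 : ¬ q ^ 2 - 1 ∣ 3 * m := not_dvd R.hq (by omega)
  have h2 : ¬ q - 1 ∣ m := by
    intro h5
    have := Nat.le_of_dvd (by omega) h5
    omega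
  have h3 := R.ne_zero_two h2
  by_contra hij
  by_cases hi : i = 1
  · subst hi
    exact R.ne_one h1 (Ne.symm hij) h.symm
  by_cases hj : j = 1
  · subst hj
    exact R.ne_one h1 hi h
  fin_cases i <;> fin_cases j <;> simp_all

/-- an eigenvector of `g` or `g ^ 2` lies on a line of the basis -/
theorem exists_line {m : ℕ} (hm : m = 1 ∨ m = 2) {w : Fin 3 → F} (hw : w ≠ 0) {c : F}
    (h : ((g ^ m : GL (Fin 3) F) : Matrix (Fin 3) (Fin 3) F) *ᵥ w = c • w) :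
    ∃ i, ∃ a : F, a ≠ 0 ∧ w = a • b i := by
  obtain ⟨i, hi⟩ : ∃ i, b.repr w i ≠ 0 := by
    by_contra hn
    push Not at hn
    apply hw
    rw [← b.sum_repr w]
    exact Finset.sum_eq_zero fun i _ => by rw [hn i, zero_smul]
  refine ⟨i, b.repr w i, hi, eq_smul fun j hj => ?_⟩
  rcases R.coord h j with h1 | h1
  · exact h1
  · rcases R.coord h i with h2 | h2
    · exact absurd h2 hi
    · exact absurd (R.inj_pow hm (h1.trans h2.symm)) hj

/-- a matrix which commutes with `g ^ m` fixes `⟨b 1⟩` -/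
theorem fix_one {m : ℕ} (hm : ¬ q ^ 2 - 1 ∣ 3 * m) {x : Matrix (Fin 3) (Fin 3) F}
    (h : x * ((g ^ m : GL (Fin 3) F) : Matrix (Fin 3) (Fin 3) F) = ((g ^ m : GL (Fin 3) F) : Matrix (Fin 3) (Fin 3) F) * x) :
    ∃ c : F, x *ᵥ b 1 = c • b 1 := by
  refine ⟨b.repr (x *ᵥ b 1) 1, eq_smul fun j hj => ?_⟩
  have h1 : ((g ^ m : GL (Fin 3) F) : Matrix (Fin 3) (Fin 3) F) *ᵥ (x *ᵥ b 1) =
      (((tt q l 1 : Fˣ) : F) ^ m) • (x *ᵥ b 1) := by
    rw [mulVec_mulVec, ← h, ← mulVec_mulVec, R.eig_pow, mulVec_smul]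
  rcases R.coord h1 j with h2 | h2
  · exact h2
  · exact absurd h2 (R.ne_one hm hj)

end Reg

end Cfsg.Agent.H987.R1
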