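import Cfsg.Agent.H987.R1.Ov

/-!
# `R1` and `Hyp` for `PSU(3,q)`, `q = 4` or `q ≥ 7` (helper987, S5745 OwnR1)

* `NoRes` : no maximal subgroup of `SU(3,q)` of the residual class contains an element of order `q ^ 2 - 1`
  modulo scalars (from S5779, see `U3Res`);
* `r1_psu3` : the data and the hypotheses.
-/

set_option autoImplicit false

namespace Cfsg.Agent.H987.R1

open Matrix Subgroup Module
open Cfsg Cfsg.Geo
open Cfsg.Agent Cfsg.Agent.UThreeGen.MatGroup
open Cfsg.Agent.HKS.EndU (tor)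

/-- no maximal subgroup of the residual class contains a large cyclic torus -/
def NoRes : Prop :=
  ∀ (F : Type) [Field F] [Fintype F] (q : ℕ) (g : GL (Fin 3) F), Fintype.card F = q ^ 2 → (q = 4 ∨ 7 ≤ q) →
    (∀ k : ℕ, g ^ k ∈ scalars (Fin 3) F → q ^ 2 - 1 ∣ 3 * k) →
    ∀ H, IsMaximalIn (GU 3 F q ⊓ specialLinear (Fin 3) F) H → g ∈ H → ¬ InUnitaryResidualClass H

theorem Reg.ord_scalar {F : Type*} [Field F] {q : ℕ} {l : Fˣ} {b : Basis (Fin 3) F (Fin 3 → F)} {g : GL (Fin 3) F}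
    (R : Reg q l b g) (k : ℕ) (h : g ^ k ∈ scalars (Fin 3) F) : q ^ 2 - 1 ∣ 3 * k := by
  obtain ⟨c, hc⟩ := (mem_scalars_iff _).1 h
  have h1 : ∀ i, ((tt q l i : Fˣ) : F) ^ k = c := by
    intro i
    have h2 := R.eig_pow k i
    rw [hc, smul_mulVec, one_mulVec] at h2
    have h3 := congrArg (fun v => b.repr v i) h2
    simp only [map_smul, Finsupp.smul_apply, b.repr_self, Finsupp.single_eq_same, smul_eq_mul, mul_one] at h3
    exact h3.symm
  apply dvd_of_zero_one R.four_le R.ord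
  apply Units.ext
  rw [Units.val_pow_eq_pow_val, Units.val_pow_eq_pow_val, h1, h1]

/-- **`R1` and `Hyp` for `PSU(3,q)`** -/
theorem r1_psu3 (hN : NoRes) {F : Type} [Field F] [Fintype F] {p : ℕ} [hp : Fact p.Prime] [CharP F p] {q : ℕ}
    (hF : Fintype.card F = q ^ 2) (hq : q = 4 ∨ 7 ≤ q) {T : Type*} [Group T] (e : T ≃* PSU 3 F q) :
    ∃ D : H470.EPO.R1 p T, D.Hyp := by
  have h4 : 4 ≤ q := by omega
  obtain ⟨n, hn⟩ : ∃ n, q = p ^ n := by
    obtain ⟨n, -, hn⟩ := FiniteField.card F p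
    have h2 : q ∣ p ^ (n : ℕ) := by
      rw [← hn, hF]
      exact Dvd.intro_left (q ^ (2 - 1)) (by ring)
    obtain ⟨m, -, hm⟩ := (Nat.dvd_prime_pow hp.out).1 h2
    exact ⟨m, hm⟩
  let σ : F →+* F := iterateFrobenius F p n
  have hs : ∀ x, σ x = x ^ q := by
    intro x
    rw [hn]
    exact iterateFrobenius_def p n x
  have hσ : Fact (∀ x, σ (σ x) = x) := ⟨fun x => by
    rw [hs, hs, ← pow_mul, ← sq, ← hF, FiniteField.pow_card]⟩
  obtain ⟨π, hπ, hker⟩ := H212.U3.Model.exists_pi (σ := σ) (q := q) (by omega) hs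
    (by rw [Nat.card_eq_fintype_card, hF])
  have C : Ctx q σ (e.symm.toMonoidHom.comp π) :=
    { q4 := h4
      hF := hF
      hs := hs
      sur := e.symm.surjective.comp hπ
      ker := fun g => by
        rw [← hker]
        show e.symm (π g) = 1 ↔ π g = 1
        rw [map_eq_one_iff e.symm e.symm.injective] }
  obtain ⟨S, S', h1, hS⟩ := exists_change (σ := σ) (by omega) hs hF
  have h2 : S' * S = 1 := mul_eq_one_comm.1 h1
  obtain ⟨l, hl, -⟩ := C.gen
  refine ⟨C.dat p, C.hyp p h1 h2 hS hq hl fun H hH hg => ?_⟩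
  exact hN F q _ hF hq (C.reg h1 h2 hq hl).ord_scalar H hH hg

end Cfsg.Agent.H987.R1
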