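import Cfsg.Agent.H987.R1.U3Res
import Cfsg.Agent.H856.U3Resid

/-!
# `R1` and `Hyp` for `PSU(3,q)`, `q = 4` or `q ≥ 7`, unconditional (helper987, S5745 OwnR1)
-/

set_option autoImplicit false

namespace Cfsg.Agent.H987.R1

open Cfsg

theorem resSt : ResSt := fun _ _ _ _ hF hq H hH hS => Cfsg.Agent.H856.U3.main hF hq H hH hS

theorem noRes : NoRes := no_res resSt

/-- **`R1` and `Hyp` for `PSU(3,q)`** -/
theorem r1_psu {F : Type} [Field F] [Fintype F] {p : ℕ} [Fact p.Prime] [CharP F p] {q : ℕ}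
    (hF : Fintype.card F = q ^ 2) (hq : q = 4 ∨ 7 ≤ q) {T : Type*} [Group T] (e : T ≃* PSU 3 F q) :
    ∃ D : H470.EPO.R1 p T, D.Hyp := r1_psu3 noRes hF hq e

/-- the field `psu` of `R1All` (helper470) -/
theorem psu {p : ℕ} [Fact p.Prime] {F : Type} [Field F] [Fintype F] [CharP F p] {q : ℕ}
    (hF : Fintype.card F = q ^ 2) (h4 : 4 ≤ q) (h5 : q ≠ 5) {T : Type} [Group T] (e : T ≃* PSU 3 F q) :
    ∃ D : H470.EPO.R1 p T, D.Hyp := psu_of noRes hF h4 h5 e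

end Cfsg.Agent.H987.R1
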