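import Cfsg.Agent.H987.R1.U3
import Cfsg.Agent.H137.EPX.Resid

/-!
# The residual class: `NoRes` from the statement of S5779 (helper987, S5745 OwnR1)
-/

set_option autoImplicit false

namespace Cfsg.Agent.H987.R1

open Matrix Subgroup
open Cfsg Cfsg.Geo

/-- the statement of S5779 in the lowest universe -/
def ResSt : Prop :=
  ∀ (F : Type) [Field F] [Fintype F] (q : ℕ) (_ : Fintype.card F = q ^ 2) (_ : 3 ≤ q)
    (H : Subgroup (Matrix.GeneralLinearGroup (Fin 3) F))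
    (_ : IsMaximalIn (GU 3 F q ⊓ specialLinear (Fin 3) F) H) (_ : InUnitaryResidualClass H),
    ∃ P : Subgroup (Matrix.GeneralLinearGroup (Fin 3) F), IsResidualCore H P ∧ q.Prime ∧
    ((Nonempty ((P ⧸ (scalars (Fin 3) F).subgroupOf P) ≃* Matrix.ProjectiveSpecialLinearGroup (Fin 3) (ZMod 2)) ∧
        q ≠ 5 ∧ (q % 7 = 3 ∨ q % 7 = 5 ∨ q % 7 = 6)) ∨
     (Nonempty ((P ⧸ (scalars (Fin 3) F).subgroupOf P) ≃* alternatingGroup (Fin 6)) ∧
        (q % 15 = 11 ∨ q % 15 = 14 ∨ q = 5)) ∨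
     (Nonempty ((P ⧸ (scalars (Fin 3) F).subgroupOf P) ≃* alternatingGroup (Fin 7)) ∧ q = 5))

theorem no_res (h : ResSt) : NoRes := by
  intro F _ _ q g hF hq hord H hH hg hres
  obtain ⟨P, hP, hqp, hc⟩ := h F q hF (by omega) H hH hres
  have h7 : 7 ≤ q := by
    rcases hq with rfl | h7
    · exact absurd hqp (by norm_num)
    · exact h7
  have hodd : Odd q := hqp.odd_of_ne_two (by omega)
  refine Cfsg.Agent.H137.EPX.resid h7 hodd hP hg hord ?_
  rcases hc with ⟨h1, -⟩ | ⟨h1, -⟩ | ⟨-, h1⟩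
  · exact Or.inl h1
  · exact Or.inr h1
  · omega

/-- the field `psu` of `R1All` (helper470) -/
theorem psu_of (hN : NoRes) {p : ℕ} [hp : Fact p.Prime] {F : Type} [Field F] [Fintype F] [CharP F p] {q : ℕ}
    (hF : Fintype.card F = q ^ 2) (h4 : 4 ≤ q) (h5 : q ≠ 5) {T : Type} [Group T] (e : T ≃* PSU 3 F q) :
    ∃ D : Cfsg.Agent.H470.EPO.R1 p T, D.Hyp := by
  refine r1_psu3 hN hF ?_ e
  by_contra hcon
  have h6 : q = 6 := by omega
  subst h6
  obtain ⟨⟨n, hn⟩, hp, hc⟩ := FiniteField.card F p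
  simp only [PNat.mk_coe] at hc
  rw [hF] at hc
  have h2 : 2 ∣ p ^ n := hc ▸ (by norm_num : 2 ∣ 6 ^ 2)
  have h3 : 3 ∣ p ^ n := hc ▸ (by norm_num : 3 ∣ 6 ^ 2)
  have h2' := (Nat.prime_dvd_prime_iff_eq Nat.prime_two hp).1 (Nat.prime_two.dvd_of_dvd_pow h2)
  have h3' := (Nat.prime_dvd_prime_iff_eq Nat.prime_three hp).1 (Nat.prime_three.dvd_of_dvd_pow h3)
  omega

end Cfsg.Agent.H987.R1
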